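import Cfsg.Agent.Chars.Orth
import Cfsg.Agent.Chars.Eigen
import Cfsg.Agent.Chars.Linear
import Mathlib.LinearAlgebra.CrossProduct
import Mathlib.LinearAlgebra.Matrix.Dual
import Mathlib.GroupTheory.FiniteAbelian.Duality
import Mathlib.GroupTheory.Abelianization.Defs

/-!
Groups with an element `u` such that every nonprincipal irreducible character satisfies
`χ 1 - χ u = 4` or `χ u = 0`: preliminaries on characters of perfect groups.
-/

set_option autoImplicit false

open Cfsg Cfsg.Agent
open scoped ComplexConjugate Matrix TensorProduct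

namespace Cfsg.Agent.PermGroups.ConstFour

universe u

variable {G : Type u} [Group G] [Fintype G]

/-- The hypothesis on `u`. -/
def Hyp (u : G) : Prop :=
  ∀ χ : IrrCharacter G, (χ : G → ℂ) ≠ (fun _ => (1 : ℂ)) →
    ((χ : G → ℂ) 1 - (χ : G → ℂ) u = 4 ∨ (χ : G → ℂ) u = 0)

/-- The principal character. -/
noncomputable def one : IrrCharacter G := ⟨fun _ => 1, Chars.isIrrCharacter_one⟩

/-- The degree. -/
noncomputable def dg (χ : IrrCharacter G) : ℕ := (Chars.exists_irr_apply_one_eq χ.2).choose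

theorem dg_pos (χ : IrrCharacter G) : 0 < dg χ :=
  (Chars.exists_irr_apply_one_eq χ.2).choose_spec.1

theorem dg_eq (χ : IrrCharacter G) : (χ : G → ℂ) 1 = dg χ :=
  (Chars.exists_irr_apply_one_eq χ.2).choose_spec.2

theorem dg_one : dg (one : IrrCharacter G) = 1 := by
  have h := dg_eq (one : IrrCharacter G)
  simp only [one] at h
  exact_mod_cast h.symm

open scoped Classical in
/-- The value at `u`. -/
noncomputable def vl (u : G) (χ : IrrCharacter G) : ℤ :=
  if χ = one then 1 else if (χ : G → ℂ) u = 0 then 0 else (dg χ : ℤ) - 4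

theorem vl_one (u : G) : vl u (one : IrrCharacter G) = 1 := by simp [vl]

theorem vl_eq {u : G} (h : Hyp u) (χ : IrrCharacter G) : (χ : G → ℂ) u = vl u χ := by
  unfold vl
  split_ifs with h1 h0
  · subst h1; simp [one]
  · simp [h0]
  · rcases h χ (fun e => h1 (Subtype.ext e)) with h4 | h4
    · rw [dg_eq] at h4
      push_cast
      linear_combination -h4
    · exact absurd h4 h0

theorem five_le {u : G} {χ : IrrCharacter G} (h1 : χ ≠ one) (hv : 0 < vl u χ) :
    5 ≤ dg χ ∧ vl u χ = (dg χ : ℤ) - 4 := by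
  unfold vl at hv ⊢
  rw [if_neg h1] at hv ⊢
  by_cases h0 : (χ : G → ℂ) u = 0
  · rw [if_pos h0] at hv; omega
  · rw [if_neg h0] at hv ⊢; exact ⟨by omega, rfl⟩

theorem hom_eq_one {u : G} (h : Hyp u) (φ : G →* ℂˣ) : φ = 1 := by
  by_contra hne
  have hne' : (fun g => (φ g : ℂ)) ≠ (fun _ => (1 : ℂ)) := fun e =>
    hne (MonoidHom.ext fun g => Units.ext (congrFun e g))
  rcases h ⟨_, Chars.isIrrCharacter_hom φ⟩ hne' with h4 | h4
  · have hn := Chars.norm_le_of_isCharacter (Chars.isCharacter_hom φ) u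
    simp only [map_one, Units.val_one] at h4 hn
    have : ((φ u : ℂˣ) : ℂ) = -3 := by linear_combination -h4
    rw [this] at hn
    norm_num at hn
  · exact (φ u).ne_zero h4

theorem commutator_eq_top {u : G} (h : Hyp u) : commutator G = ⊤ := by
  by_contra hne
  obtain ⟨g, -, hg⟩ := SetLike.exists_of_lt (lt_top_iff_ne_top.2 hne)
  have hg1 : Abelianization.of g ≠ 1 := fun e => hg (by
    have := MonoidHom.mem_ker.2 e
    rwa [Abelianization.ker_of] at this)
  haveI : Finite (Abelianization G) := inferInstanceAs (Finite (G ⧸ commutator G))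
  obtain ⟨φ, hφ⟩ := CommGroup.exists_apply_ne_one_of_hasEnoughRootsOfUnity (Abelianization G) ℂ hg1
  exact hφ (DFunLike.congr_fun (hom_eq_one h (φ.comp Abelianization.of)) g)

theorem eq_one_of_dg {u : G} (h : Hyp u) {χ : IrrCharacter G} (hd : dg χ = 1) : χ = one := by
  obtain ⟨φ, hφ⟩ := Chars.exists_hom_of_degree_one (Chars.irr_isCharacter χ)
    (by rw [dg_eq, hd]; simp)
  refine Subtype.ext (funext fun g => ?_)
  have := DFunLike.congr_fun (hom_eq_one h φ) g
  simp [hφ, this, one]

theorem det_eq_one {n : ℕ} {u : G} (h : Hyp u) (ρ : Representation ℂ G (Fin n → ℂ)) (g : G) :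
    LinearMap.det (ρ g) = 1 := by
  have := DFunLike.congr_fun
    (hom_eq_one h ((LinearMap.det.comp ρ).toHomUnits)) g
  simpa [MonoidHom.coe_toHomUnits] using congrArg Units.val this

/-- Eigenvalues of an element in a representation of a perfect group. -/
theorem eigen {n : ℕ} {u : G} (h : Hyp u) (ρ : Representation ℂ G (Fin n → ℂ)) (g : G) :
    ∃ z : Fin n → ℂ, (∀ i, z i * conj (z i) = 1) ∧ ∏ i, z i = 1 ∧
      ρ.character g = ∑ i, z i ∧ ρ.character (g ^ 2) = ∑ i, z i ^ 2 := by
  classical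
  obtain ⟨b, z, hb, hz⟩ := Chars.exists_eigenbasis ρ g
  have hn : Module.finrank ℂ (Fin n → ℂ) = n := Module.finrank_fin_fun ℂ
  let e := finCongr hn
  let b' := b.reindex e
  have hb' : ∀ i, ρ g (b' i) = z (e.symm i) • b' i := fun i => by
    simp only [b', Module.Basis.reindex_apply, hb]
  have hmat : LinearMap.toMatrix b' b' (ρ g) = Matrix.diagonal (fun i => z (e.symm i)) := by
    ext i j
    rw [LinearMap.toMatrix_apply, hb', map_smul]
    by_cases hij : i = j
    · subst hij; simp
    · simp [Matrix.diagonal_apply_ne _ hij, Ne.symm hij]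
  have hb2 : ∀ i, ρ (g ^ 2) (b' i) = z (e.symm i) ^ 2 • b' i := fun i => by
    rw [pow_two, map_mul, Module.End.mul_apply, hb', map_smul, hb', smul_smul, pow_two]
  have hmat2 : LinearMap.toMatrix b' b' (ρ (g ^ 2)) =
      Matrix.diagonal (fun i => z (e.symm i) ^ 2) := by
    ext i j
    rw [LinearMap.toMatrix_apply, hb2, map_smul]
    by_cases hij : i = j
    · subst hij; simp
    · simp [Matrix.diagonal_apply_ne _ hij, Ne.symm hij]
  refine ⟨fun i => z (e.symm i), fun i => ?_, ?_, ?_, ?_⟩
  · have h1 := Chars.norm_eq_one_of_pow_eq_one (orderOf_pos g).ne' (hz (e.symm i))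
    rw [Complex.mul_conj, Complex.normSq_eq_norm_sq, h1]
    norm_num
  · have := det_eq_one h ρ g
    rw [← LinearMap.det_toMatrix b', hmat, Matrix.det_diagonal] at this
    exact this
  · rw [Representation.character, LinearMap.trace_eq_matrix_trace ℂ b', hmat, Matrix.trace_diagonal]
  · rw [Representation.character, LinearMap.trace_eq_matrix_trace ℂ b', hmat2, Matrix.trace_diagonal]

/-- A character of degree two is real. -/
theorem conj_two {u : G} (h : Hyp u) {χ : IrrCharacter G} (hd : dg χ = 2) (g : G) :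
    conj ((χ : G → ℂ) g) = (χ : G → ℂ) g := by
  obtain ⟨n, ρ, hi, hχ⟩ := χ.2
  have hn : n = 2 := by
    have := dg_eq χ
    rw [← hχ, Representation.char_one, Module.finrank_fin_fun, hd] at this
    exact_mod_cast this
  subst hn
  obtain ⟨z, hn', hp, h1, -⟩ := eigen h ρ g
  rw [← hχ, h1]
  simp only [Fin.sum_univ_two, Fin.prod_univ_two, map_add] at *
  have a := hn' 0
  have b := hn' 1
  linear_combination (z 1) * a + (z 0) * b - (conj (z 0) + conj (z 1)) * hp

/-- The square of an element in a character of degree three. -/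
theorem sq_three {u : G} (h : Hyp u) {χ : IrrCharacter G} (hd : dg χ = 3) (g : G) :
    (χ : G → ℂ) (g ^ 2) = (χ : G → ℂ) g ^ 2 - 2 * conj ((χ : G → ℂ) g) := by
  obtain ⟨n, ρ, hi, hχ⟩ := χ.2
  have hn : n = 3 := by
    have := dg_eq χ
    rw [← hχ, Representation.char_one, Module.finrank_fin_fun, hd] at this
    exact_mod_cast this
  subst hn
  obtain ⟨z, hn', hp, h1, h2⟩ := eigen h ρ g
  rw [← hχ, h1, h2]
  simp only [Fin.sum_univ_three, Fin.prod_univ_three, map_add] at *
  have a := hn' 0
  have b := hn' 1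
  have c := hn' 2
  linear_combination (-2 * conj (z 0) - 2 * conj (z 1) - 2 * conj (z 2)) * hp
    + 2 * (z 1 * z 2) * a + 2 * (z 0 * z 2) * b + 2 * (z 0 * z 1) * c

theorem det_rows (A : Matrix (Fin 3) (Fin 3) ℂ) (x y w : Fin 3 → ℂ) :
    Matrix.det ![A *ᵥ x, A *ᵥ y, A *ᵥ w] = A.det * Matrix.det ![x, y, w] := by
  have e : Matrix.of ![A *ᵥ x, A *ᵥ y, A *ᵥ w] = Matrix.of ![x, y, w] * Aᵀ := by
    ext i j
    fin_cases i <;> simp [Matrix.mul_apply, Matrix.mulVec, dotProduct, mul_comm]
  have h := congrArg Matrix.det e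
  rw [Matrix.det_mul, Matrix.det_transpose, mul_comm] at h
  exact h

/-- The cross product: the square of a character of degree three contains its conjugate. -/
theorem cross_pos {u : G} (h : Hyp u) {χ : IrrCharacter G} (hd : dg χ = 3) :
    ∃ m : ℕ, 0 < m ∧
      classInner (fun g => conj ((χ : G → ℂ) g)) ((χ : G → ℂ) * (χ : G → ℂ)) = m := by
  obtain ⟨n, ρ, hi, hχ⟩ := χ.2
  have hn : n = 3 := by
    have := dg_eq χ
    rw [← hχ, Representation.char_one, Module.finrank_fin_fun, hd] at this
    exact_mod_cast this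
  subst hn
  let L : (Fin 3 → ℂ) ⊗[ℂ] (Fin 3 → ℂ) →ₗ[ℂ] Module.Dual ℂ (Fin 3 → ℂ) :=
    TensorProduct.lift ((crossProduct).compr₂ (dotProductEquiv ℂ (Fin 3)).toLinearMap)
  have hL : ∀ v w x, L (v ⊗ₜ w) x = Matrix.det ![x, v, w] := fun v w x => by
    rw [← triple_product_eq_det, dotProduct_comm]
    simp [L]
  have heq : ∀ g v, L ((ρ.tprod ρ) g v) = ρ.dual g (L v) := by
    intro g v
    induction v using TensorProduct.induction_on with
    | zero => simp
    | add a b ha hb => rw [map_add, map_add, ha, hb, map_add, map_add]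
    | tmul v w =>
      refine LinearMap.ext fun x => ?_
      have h1 : ∀ y, ρ g y = LinearMap.toMatrix' (ρ g) *ᵥ y := fun y => by
        simp [← Matrix.toLin'_apply]
      rw [show (ρ.tprod ρ) g (v ⊗ₜ w) = ρ g v ⊗ₜ ρ g w from rfl, hL]
      show _ = L (v ⊗ₜ w) (ρ g⁻¹ x)
      rw [hL]
      conv_lhs => rw [show x = ρ g (ρ g⁻¹ x) by
        rw [← Module.End.mul_apply, ← map_mul, mul_inv_cancel, map_one, Module.End.one_apply],
        h1 (ρ g⁻¹ x), h1 v, h1 w, det_rows, LinearMap.det_toMatrix', det_eq_one h, one_mul]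
  let F := L.intertwiningMap_of_isIntertwiningMap (ρ := ρ.tprod ρ) (σ := ρ.dual) heq
  have hF : F ≠ 0 := by
    intro e
    have e1 : L ((Pi.single 1 1) ⊗ₜ (Pi.single 2 1)) = 0 :=
      congrArg (fun f : (ρ.tprod ρ).IntertwiningMap ρ.dual =>
        f ((Pi.single 1 1) ⊗ₜ (Pi.single 2 1))) e
    have e2 := LinearMap.congr_fun e1 (Pi.single 0 1)
    rw [hL] at e2
    rw [LinearMap.zero_apply, ← triple_product_eq_det, cross_apply] at e2
    simp [dotProduct, Fin.sum_univ_three] at e2
  have hpos : 0 < Module.finrank ℂ ((ρ.tprod ρ).IntertwiningMap ρ.dual) :=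
    Module.finrank_pos_iff_exists_ne_zero.2 ⟨F, hF⟩
  refine ⟨_, hpos, ?_⟩
  rw [← Chars.classInner_rep ρ.dual (ρ.tprod ρ), ← hχ, Representation.char_tensor,
    show ρ.dual.character = fun g => conj (ρ.character g) from funext fun g => by
      rw [Representation.char_dual, Chars.char_inv_eq_conj (Chars.isCharacter_of_rep ρ)]]

end Cfsg.Agent.PermGroups.ConstFour
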