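import Cfsg.Agent.PermGroups.ConstantFour.Basic

/-!
The characters with nonzero value at `u` are the principal character, two characters of degree
three and one of degree five.
-/

set_option autoImplicit false

open Cfsg Cfsg.Agent
open scoped ComplexConjugate

namespace Cfsg.Agent.PermGroups.ConstFour

universe u

variable {G : Type u} [Group G] [Fintype G]

/-- The complex conjugate. -/
noncomputable def cj (χ : IrrCharacter G) : IrrCharacter G :=
  ⟨fun g => conj ((χ : G → ℂ) g), Chars.isIrrCharacter_star χ.2⟩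

@[simp] theorem cj_apply (χ : IrrCharacter G) (g : G) :
    (cj χ : G → ℂ) g = conj ((χ : G → ℂ) g) := rfl

theorem cj_cj (χ : IrrCharacter G) : cj (cj χ) = χ :=
  Subtype.ext (funext fun g => by simp [cj])

theorem dg_cj (χ : IrrCharacter G) : dg (cj χ) = dg χ := by
  have h := dg_eq (cj χ)
  rw [cj_apply, dg_eq, map_natCast] at h
  exact_mod_cast h.symm

theorem vl_cj {u : G} (h : Hyp u) (χ : IrrCharacter G) : vl u (cj χ) = vl u χ := by
  have h1 := vl_eq h (cj χ)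
  rw [cj_apply, vl_eq h χ, map_intCast] at h1
  exact_mod_cast h1.symm

/-- The multiplicity. -/
noncomputable def mu (f : G → ℂ) (ψ : IrrCharacter G) : ℕ :=
  ⌊(classInner f (ψ : G → ℂ)).re⌋₊

theorem mu_eq {f : G → ℂ} (hf : IsCharacter G f) (ψ : IrrCharacter G) :
    classInner f (ψ : G → ℂ) = mu f ψ := by
  obtain ⟨n, hn⟩ := Chars.exists_classInner_eq_nat hf (Chars.irr_isCharacter ψ)
  unfold mu
  rw [hn, Complex.natCast_re, Nat.floor_natCast]

theorem expand {f : G → ℂ} (hf : IsCharacter G f) (g : G) :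
    f g = ∑ ψ : IrrCharacter G, (mu f ψ : ℂ) * (ψ : G → ℂ) g := by
  conv_lhs => rw [Chars.eq_sum_classInner (Chars.isClassFunction_of_isCharacter hf)]
  simp [Finset.sum_apply, mu_eq hf]

theorem deg_sum {f : G → ℂ} (hf : IsCharacter G f) {n : ℕ} (h1 : f 1 = n) :
    ∑ ψ : IrrCharacter G, mu f ψ * dg ψ = n := by
  have : ((∑ ψ : IrrCharacter G, mu f ψ * dg ψ : ℕ) : ℂ) = n := by
    rw [← h1, expand hf 1]
    push_cast
    simp [dg_eq]
  exact_mod_cast this

theorem val_sum {u : G} (h : Hyp u) {f : G → ℂ} (hf : IsCharacter G f) {v : ℤ} (h1 : f u = v) :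
    ∑ ψ : IrrCharacter G, (mu f ψ : ℤ) * vl u ψ = v := by
  have : ((∑ ψ : IrrCharacter G, (mu f ψ : ℤ) * vl u ψ : ℤ) : ℂ) = v := by
    rw [← h1, expand hf u]
    push_cast
    simp [vl_eq h]
  exact_mod_cast this

theorem inner_chars {f f' : G → ℂ} (hf : IsCharacter G f) (hf' : IsCharacter G f') :
    classInner f f' = ((∑ ψ : IrrCharacter G, mu f ψ * mu f' ψ : ℕ) : ℂ) := by
  rw [Chars.classInner_eq_sum (Chars.isClassFunction_of_isCharacter hf) f']
  push_cast
  refine Finset.sum_congr rfl fun ψ _ => ?_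
  rw [mu_eq hf, ← Chars.classInner_conj_symm f' (ψ : G → ℂ), mu_eq hf']
  simp

theorem mu_irr (χ : IrrCharacter G) (ψ : IrrCharacter G) [Decidable (χ = ψ)] :
    mu (χ : G → ℂ) ψ = if χ = ψ then 1 else 0 := by
  unfold mu
  rw [Chars.classInner_irrCharacter]
  split_ifs <;> simp

/-- Moving factors across the inner product. -/
theorem inner_mul (a b c d : IrrCharacter G) :
    classInner ((a : G → ℂ) * (b : G → ℂ)) ((c : G → ℂ) * (d : G → ℂ)) =
      classInner ((a : G → ℂ) * (cj c : G → ℂ)) ((cj b : G → ℂ) * (d : G → ℂ)) := by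
  rw [Chars.classInner_def, Chars.classInner_def]
  refine congrArg _ (Finset.sum_congr rfl fun g _ => ?_)
  simp [cj]
  ring

theorem isChar_mul (a b : IrrCharacter G) : IsCharacter G ((a : G → ℂ) * (b : G → ℂ)) :=
  Chars.isCharacter_mul (Chars.irr_isCharacter a) (Chars.irr_isCharacter b)

theorem mu_mul_one (a b : IrrCharacter G) [Decidable (a = cj b)] :
    mu ((a : G → ℂ) * (b : G → ℂ)) one = if a = cj b then 1 else 0 := by
  have e : classInner ((a : G → ℂ) * (b : G → ℂ)) (one : IrrCharacter G) = classInner (a : G → ℂ) (cj b) := by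
    rw [Chars.classInner_def, Chars.classInner_def]
    refine congrArg _ (Finset.sum_congr rfl fun g _ => ?_)
    simp [cj, one]
  unfold mu
  rw [e, Chars.classInner_irrCharacter]
  split_ifs <;> simp

theorem deg_le {f : G → ℂ} (hf : IsCharacter G f) {n : ℕ} (h1 : f 1 = n)
    (s : Finset (IrrCharacter G)) : ∑ ψ ∈ s, mu f ψ * dg ψ ≤ n :=
  (deg_sum hf h1) ▸ Finset.sum_le_univ_sum_of_nonneg (fun _ => Nat.zero_le _)

/-- If all but at most one of the degree is used up by `s`, nothing lies outside `s`. -/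
theorem exhaust {u : G} (h : Hyp u) {f : G → ℂ} (hf : IsCharacter G f) {n : ℕ} (h1 : f 1 = n)
    {s : Finset (IrrCharacter G)} (hone : one ∈ s) (hs : n ≤ ∑ ψ ∈ s, mu f ψ * dg ψ + 1)
    {ψ : IrrCharacter G} (hψ : ψ ∉ s) : mu f ψ = 0 := by
  classical
  by_contra hne
  have h2 := deg_le hf h1 (insert ψ s)
  rw [Finset.sum_insert hψ] at h2
  have h3 : dg ψ ≠ 1 := fun e => hψ (eq_one_of_dg h e ▸ hone)
  have h4 := dg_pos ψ
  have h5 : 2 ≤ mu f ψ * dg ψ :=
    le_trans (by omega) (Nat.le_mul_of_pos_left (dg ψ) (Nat.pos_of_ne_zero hne))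
  omega

/-- A degree three character with value `-1` at `u`. -/
def Three (u : G) (χ : IrrCharacter G) : Prop := dg χ = 3 ∧ vl u χ = -1

/-- A nonprincipal character with positive value at `u`. -/
def Pos (u : G) (χ : IrrCharacter G) : Prop := χ ≠ one ∧ 0 < vl u χ

theorem three_ne_one {u : G} {χ : IrrCharacter G} (hχ : Three u χ) : χ ≠ one := fun e => by
  have := hχ.1
  rw [e, dg_one] at this
  omega

theorem three_cj {u : G} (h : Hyp u) {χ : IrrCharacter G} (hχ : Three u χ) : Three u (cj χ) :=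
  ⟨(dg_cj χ).trans hχ.1, (vl_cj h χ).trans hχ.2⟩

theorem no_two {u : G} (h : Hyp u) {χ : IrrCharacter G} (hd : dg χ = 2) : vl u χ = 0 := by
  classical
  by_contra hv
  have h1 : χ ≠ one := fun e => by rw [e, dg_one] at hd; omega
  have hv2 : vl u χ = -2 := by
    unfold vl at hv ⊢
    rw [if_neg h1] at hv ⊢
    by_cases h0 : (χ : G → ℂ) u = 0
    · rw [if_pos h0] at hv; exact absurd rfl hv
    · rw [if_neg h0]; omega
  have hcj : χ = cj χ := Subtype.ext (funext fun g => (conj_two h hd g).symm)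
  have hf := isChar_mul χ χ
  have hf1 : ((χ : G → ℂ) * (χ : G → ℂ)) 1 = ((4 : ℕ) : ℂ) := by simp [dg_eq, hd]; norm_num
  have hfu : ((χ : G → ℂ) * (χ : G → ℂ)) u = ((4 : ℤ) : ℂ) := by simp [vl_eq h, hv2]; norm_num
  have hone : mu ((χ : G → ℂ) * (χ : G → ℂ)) one = 1 := by rw [mu_mul_one, if_pos hcj]
  have hsum := val_sum h hf hfu
  rw [← Finset.add_sum_erase _ _ (Finset.mem_univ one), hone, vl_one] at hsum
  obtain ⟨ψ, hψ, hpos⟩ := Finset.exists_lt_of_sum_lt
    (s := Finset.univ.erase (one : IrrCharacter G)) (f := fun _ => (0 : ℤ))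
    (g := fun ψ => (mu ((χ : G → ℂ) * (χ : G → ℂ)) ψ : ℤ) * vl u ψ) (by simp only [Finset.sum_const_zero]; omega)
  have hψ1 := (Finset.mem_erase.1 hψ).1
  obtain ⟨hm, hv'⟩ : 0 < mu ((χ : G → ℂ) * (χ : G → ℂ)) ψ ∧ 0 < vl u ψ := by
    rcases Nat.eq_zero_or_pos (mu ((χ : G → ℂ) * (χ : G → ℂ)) ψ) with e | e
    · simp [e] at hpos
    · exact ⟨e, (pos_iff_pos_of_mul_pos hpos).1 (by exact_mod_cast e)⟩
  have h5 := (five_le hψ1 hv').1
  have h6 := deg_le hf hf1 {ψ}
  rw [Finset.sum_singleton] at h6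
  have := le_trans (Nat.le_mul_of_pos_left (dg ψ) hm) h6
  omega

theorem cases_vl {u : G} (h : Hyp u) {χ : IrrCharacter G} (h1 : χ ≠ one) (hv : vl u χ ≠ 0) :
    Three u χ ∨ Pos u χ := by
  have hd0 := dg_pos χ
  have hd1 : dg χ ≠ 1 := fun e => h1 (eq_one_of_dg h e)
  have hd2 : dg χ ≠ 2 := fun e => hv (no_two h e)
  have he : vl u χ = (dg χ : ℤ) - 4 := by
    unfold vl at hv ⊢
    rw [if_neg h1] at hv ⊢
    by_cases h0 : (χ : G → ℂ) u = 0
    · rw [if_pos h0] at hv; exact absurd rfl hv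
    · rw [if_neg h0]
  by_cases h3 : dg χ = 3
  · exact Or.inl ⟨h3, by omega⟩
  · exact Or.inr ⟨h1, by omega⟩

/-- A positive component. -/
theorem pos_comp {u : G} {f : G → ℂ} (s : Finset (IrrCharacter G))
    (hs : one ∉ s) (hv : 0 < ∑ ψ ∈ s, (mu f ψ : ℤ) * vl u ψ) :
    ∃ ψ ∈ s, 0 < mu f ψ ∧ Pos u ψ := by
  obtain ⟨ψ, hψ, hpos⟩ := Finset.exists_lt_of_sum_lt
    (s := s) (f := fun _ => (0 : ℤ)) (g := fun ψ => (mu f ψ : ℤ) * vl u ψ)
    (by simpa using hv)
  rcases Nat.eq_zero_or_pos (mu f ψ) with e | e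
  · simp [e] at hpos
  · exact ⟨ψ, hψ, e, fun hc => hs (hc ▸ hψ), (pos_iff_pos_of_mul_pos hpos).1 (by exact_mod_cast e)⟩

section products

variable {u : G} (h : Hyp u) {χ t : IrrCharacter G} (hχ : Three u χ) (ht : Three u t)

include h hχ ht

theorem mul_one_apply : ((χ : G → ℂ) * (t : G → ℂ)) 1 = ((9 : ℕ) : ℂ) := by
  simp [dg_eq, hχ.1, ht.1]; norm_num

theorem mul_u_apply : ((χ : G → ℂ) * (t : G → ℂ)) u = ((1 : ℤ) : ℂ) := by
  simp [vl_eq h, hχ.2, ht.2]

theorem nine (hne : χ ≠ cj t) :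
    (∃ φ, 0 < mu ((χ : G → ℂ) * (t : G → ℂ)) φ ∧ Pos u φ) ∧
      2 ≤ ∑ ψ : IrrCharacter G, mu ((χ : G → ℂ) * (t : G → ℂ)) ψ * mu ((χ : G → ℂ) * (t : G → ℂ)) ψ := by
  classical
  have hf := isChar_mul χ t
  have hone : mu ((χ : G → ℂ) * (t : G → ℂ)) one = 0 := by rw [mu_mul_one, if_neg hne]
  have hsum := val_sum h hf (mul_u_apply h hχ ht)
  rw [← Finset.add_sum_erase _ _ (Finset.mem_univ one), hone] at hsum
  obtain ⟨φ, hφ, hm, hp⟩ := pos_comp (u := u) (f := (χ : G → ℂ) * (t : G → ℂ))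
    (Finset.univ.erase one) (by simp) (by simp at hsum ⊢; omega)
  refine ⟨⟨φ, hm, hp⟩, ?_⟩
  by_contra hlt
  push Not at hlt
  have hN : classInner ((χ : G → ℂ) * (t : G → ℂ)) ((χ : G → ℂ) * (t : G → ℂ)) = 1 := by
    rw [inner_chars hf hf]
    have h1 : 1 ≤ ∑ ψ : IrrCharacter G, mu ((χ : G → ℂ) * (t : G → ℂ)) ψ * mu ((χ : G → ℂ) * (t : G → ℂ)) ψ :=
      le_trans (Nat.mul_pos hm hm) (Finset.single_le_sum
        (f := fun ψ => mu ((χ : G → ℂ) * (t : G → ℂ)) ψ * mu ((χ : G → ℂ) * (t : G → ℂ)) ψ)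
        (fun _ _ => Nat.zero_le _) (Finset.mem_univ φ))
    rw [show ∑ ψ : IrrCharacter G, mu ((χ : G → ℂ) * (t : G → ℂ)) ψ * mu ((χ : G → ℂ) * (t : G → ℂ)) ψ = 1 by omega]
    simp
  let ω : IrrCharacter G := ⟨_, Chars.isIrrCharacter_of_norm_one hf hN⟩
  have hω1 : dg ω = 9 := by
    have := (dg_eq ω).symm.trans (mul_one_apply h hχ ht)
    exact_mod_cast this
  have hωu : vl u ω = 1 := by
    have := (vl_eq h ω).symm.trans (mul_u_apply h hχ ht)
    exact_mod_cast this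
  have hω : ω ≠ one := fun e => by rw [e, dg_one] at hω1; omega
  have := (five_le hω (by omega : 0 < vl u ω)).2
  omega

/-- The inner product of `χ χ̄` and `t t̄` is at least two. -/
theorem two_le_inner (hne : χ ≠ cj t) :
    2 ≤ ∑ ψ : IrrCharacter G, mu ((χ : G → ℂ) * (cj χ : G → ℂ)) ψ * mu ((cj t : G → ℂ) * (t : G → ℂ)) ψ := by
  have := (nine h hχ ht hne).2
  have e := inner_mul χ t χ t
  rw [inner_chars (isChar_mul _ _) (isChar_mul _ _),
    inner_chars (isChar_mul _ _) (isChar_mul _ _)] at e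
  have e' := Nat.cast_injective e
  omega

end products

section squares

variable {u : G} (h : Hyp u) {χ : IrrCharacter G} (hχ : Three u χ)

include h hχ

theorem cj_mem_sq : 0 < mu ((χ : G → ℂ) * (χ : G → ℂ)) (cj χ) := by
  obtain ⟨m, hm, e⟩ := cross_pos h hχ.1
  have e2 := Chars.classInner_conj_symm (fun g => conj ((χ : G → ℂ) g)) ((χ : G → ℂ) * (χ : G → ℂ))
  rw [e, map_natCast] at e2
  unfold mu
  rw [show (cj χ : G → ℂ) = fun g => conj ((χ : G → ℂ) g) from rfl, ← e2]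
  simpa using hm

theorem square_real (hr : cj χ = χ) :
    ∃ φ, Pos u φ ∧ dg φ = 5 ∧ mu ((χ : G → ℂ) * (χ : G → ℂ)) one = 1 ∧ mu ((χ : G → ℂ) * (χ : G → ℂ)) χ = 1 ∧
      mu ((χ : G → ℂ) * (χ : G → ℂ)) φ = 1 ∧
      (∀ ψ, ψ ≠ one → ψ ≠ χ → ψ ≠ φ → mu ((χ : G → ℂ) * (χ : G → ℂ)) ψ = 0) := by
  classical
  have hf := isChar_mul χ χ
  have hone : mu ((χ : G → ℂ) * (χ : G → ℂ)) one = 1 := by rw [mu_mul_one, if_pos hr.symm]
  have hm := cj_mem_sq h hχ
  rw [hr] at hm
  have hne := three_ne_one hχ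
  have hsum := val_sum h hf (mul_u_apply h hχ hχ)
  rw [← Finset.add_sum_erase _ _ (Finset.mem_univ one), hone, vl_one,
    ← Finset.add_sum_erase (Finset.univ.erase one) _
      (Finset.mem_erase.2 ⟨hne, Finset.mem_univ χ⟩), hχ.2] at hsum
  obtain ⟨φ, hφ, hmφ, hp⟩ := pos_comp (u := u) (f := (χ : G → ℂ) * (χ : G → ℂ))
    ((Finset.univ.erase one).erase χ) (by simp) (by omega)
  have hφχ : φ ≠ χ := (Finset.mem_erase.1 hφ).1
  have h5 := (five_le hp.1 hp.2).1
  have hd := deg_le hf (mul_one_apply h hχ hχ) {one, χ, φ}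
  rw [Finset.sum_insert (by simp [Ne.symm hne, Ne.symm hp.1]), Finset.sum_pair (Ne.symm hφχ),
    hone, dg_one, hχ.1] at hd
  have hA : mu ((χ : G → ℂ) * (χ : G → ℂ)) χ = 1 ∧ mu ((χ : G → ℂ) * (χ : G → ℂ)) φ = 1 ∧ dg φ = 5 := by
    have h1 : dg φ ≤ mu ((χ : G → ℂ) * (χ : G → ℂ)) φ * dg φ := Nat.le_mul_of_pos_left _ hmφ
    have h2 : mu ((χ : G → ℂ) * (χ : G → ℂ)) χ = 1 := by omega
    refine ⟨h2, ?_, by omega⟩
    by_contra hc
    have : 2 * dg φ ≤ mu ((χ : G → ℂ) * (χ : G → ℂ)) φ * dg φ := Nat.mul_le_mul_right _ (by omega)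
    omega
  refine ⟨φ, hp, hA.2.2, hone, hA.1, hA.2.1, fun ψ a b c => ?_⟩
  refine exhaust h hf (mul_one_apply h hχ hχ) (s := {one, χ, φ}) (by simp) ?_ (by simp [a, b, c])
  rw [Finset.sum_insert (by simp [Ne.symm hne, Ne.symm hp.1]), Finset.sum_pair (Ne.symm hφχ),
    hone, dg_one, hχ.1, hA.1, hA.2.1, hA.2.2]
  norm_num

theorem square_nonreal (hr : cj χ ≠ χ) :
    (∃ φ, Pos u φ ∧ dg φ = 6) ∧
      ∑ ψ : IrrCharacter G, mu ((χ : G → ℂ) * (χ : G → ℂ)) ψ * mu ((χ : G → ℂ) * (χ : G → ℂ)) ψ = 2 := by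
  classical
  have hf := isChar_mul χ χ
  have hone : mu ((χ : G → ℂ) * (χ : G → ℂ)) one = 0 := by rw [mu_mul_one, if_neg (Ne.symm hr)]
  have hm := cj_mem_sq h hχ
  have hne := three_ne_one (three_cj h hχ)
  have hsum := val_sum h hf (mul_u_apply h hχ hχ)
  rw [← Finset.add_sum_erase _ _ (Finset.mem_univ one), hone,
    ← Finset.add_sum_erase (Finset.univ.erase one) _
      (Finset.mem_erase.2 ⟨hne, Finset.mem_univ (cj χ)⟩), (three_cj h hχ).2] at hsum
  push_cast at hsum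
  obtain ⟨φ, hφ, hmφ, hp⟩ := pos_comp (u := u) (f := (χ : G → ℂ) * (χ : G → ℂ))
    ((Finset.univ.erase one).erase (cj χ)) (by simp) (by omega)
  have hφχ : φ ≠ cj χ := (Finset.mem_erase.1 hφ).1
  obtain ⟨h5, hvφ⟩ := five_le hp.1 hp.2
  have hd := deg_le hf (mul_one_apply h hχ hχ) {one, cj χ, φ}
  have hs3 : ∑ ψ ∈ ({one, cj χ, φ} : Finset (IrrCharacter G)), mu ((χ : G → ℂ) * (χ : G → ℂ)) ψ * dg ψ =
      mu ((χ : G → ℂ) * (χ : G → ℂ)) (cj χ) * 3 + mu ((χ : G → ℂ) * (χ : G → ℂ)) φ * dg φ := by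
    rw [Finset.sum_insert (by simp [Ne.symm hne, Ne.symm hp.1]), Finset.sum_pair (Ne.symm hφχ),
      hone, (three_cj h hχ).1, zero_mul, zero_add]
  rw [hs3] at hd
  have h1 : dg φ ≤ mu ((χ : G → ℂ) * (χ : G → ℂ)) φ * dg φ := Nat.le_mul_of_pos_left _ hmφ
  have hm1 : mu ((χ : G → ℂ) * (χ : G → ℂ)) (cj χ) = 1 := by omega
  have hk1 : mu ((χ : G → ℂ) * (χ : G → ℂ)) φ = 1 := by
    by_contra hc
    have : 2 * dg φ ≤ mu ((χ : G → ℂ) * (χ : G → ℂ)) φ * dg φ := Nat.mul_le_mul_right _ (by omega)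
    omega
  rw [hk1, one_mul, hm1] at hd hs3
  have hout : ∀ ψ, ψ ∉ ({one, cj χ, φ} : Finset (IrrCharacter G)) →
      mu ((χ : G → ℂ) * (χ : G → ℂ)) ψ = 0 := fun ψ hψ =>
    exhaust h hf (mul_one_apply h hχ hχ) (by simp) (by rw [hs3]; omega) hψ
  have hrest : ∀ ψ ∈ ((Finset.univ.erase one).erase (cj χ)).erase φ,
      mu ((χ : G → ℂ) * (χ : G → ℂ)) ψ = 0 := fun ψ hψ => by
    simp only [Finset.mem_erase] at hψ
    exact hout ψ (by simp [hψ.1, hψ.2.1, hψ.2.2.1])
  rw [← Finset.add_sum_erase _ _ hφ, hm1, hk1,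
    Finset.sum_eq_zero (fun ψ hψ => by rw [hrest ψ hψ]; simp), hvφ] at hsum
  refine ⟨⟨φ, hp, by omega⟩, ?_⟩
  rw [← Finset.sum_subset (Finset.subset_univ ({one, cj χ, φ} : Finset (IrrCharacter G)))
    (fun ψ _ hψ => by rw [hout ψ hψ, zero_mul]),
    Finset.sum_insert (by simp [Ne.symm hne, Ne.symm hp.1]), Finset.sum_pair (Ne.symm hφχ),
    hone, hm1, hk1]
  norm_num

theorem eight (hr : cj χ ≠ χ) :
    ∃ E, E ≠ one ∧ dg E = 8 ∧ mu ((χ : G → ℂ) * (cj χ : G → ℂ)) one = 1 ∧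
      mu ((χ : G → ℂ) * (cj χ : G → ℂ)) E = 1 ∧
      (∀ ψ, ψ ≠ one → ψ ≠ E → mu ((χ : G → ℂ) * (cj χ : G → ℂ)) ψ = 0) := by
  classical
  have hf := isChar_mul χ (cj χ)
  have hN : ∑ ψ : IrrCharacter G, mu ((χ : G → ℂ) * (cj χ : G → ℂ)) ψ * mu ((χ : G → ℂ) * (cj χ : G → ℂ)) ψ = 2 := by
    have e := inner_mul χ χ χ χ
    rw [inner_chars (isChar_mul _ _) (isChar_mul _ _), (square_nonreal h hχ hr).2] at e
    have e2 : ((χ : G → ℂ) * (cj χ : G → ℂ)) = (cj χ : G → ℂ) * (χ : G → ℂ) := mul_comm _ _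
    rw [← e2, inner_chars hf hf] at e
    exact (Nat.cast_injective e).symm
  have hone : mu ((χ : G → ℂ) * (cj χ : G → ℂ)) one = 1 := by rw [mu_mul_one, if_pos (cj_cj χ).symm]
  rw [← Finset.add_sum_erase _ _ (Finset.mem_univ one), hone] at hN
  obtain ⟨E, hE, hE0⟩ : ∃ E ∈ Finset.univ.erase (one : IrrCharacter G),
      mu ((χ : G → ℂ) * (cj χ : G → ℂ)) E ≠ 0 := by
    by_contra hc
    push Not at hc
    rw [Finset.sum_eq_zero (fun ψ hψ => by rw [hc ψ hψ, zero_mul])] at hN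
    omega
  have hsplit := hN
  rw [← Finset.add_sum_erase _ _ hE] at hsplit
  have hsq := Nat.mul_pos (Nat.pos_of_ne_zero hE0) (Nat.pos_of_ne_zero hE0)
  have hE1 : mu ((χ : G → ℂ) * (cj χ : G → ℂ)) E = 1 := by
    by_contra hc
    have := Nat.mul_le_mul (show 2 ≤ mu ((χ : G → ℂ) * (cj χ : G → ℂ)) E by omega)
      (show 2 ≤ mu ((χ : G → ℂ) * (cj χ : G → ℂ)) E by omega)
    omega
  rw [hE1] at hsplit
  have hz : ∀ ψ, ψ ≠ one → ψ ≠ E → mu ((χ : G → ℂ) * (cj χ : G → ℂ)) ψ = 0 := fun ψ a b => by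
    have := Finset.single_le_sum
      (f := fun ψ => mu ((χ : G → ℂ) * (cj χ : G → ℂ)) ψ * mu ((χ : G → ℂ) * (cj χ : G → ℂ)) ψ)
      (fun _ _ => Nat.zero_le _) (show ψ ∈ (Finset.univ.erase one).erase E by simp [a, b])
    exact mul_self_eq_zero.1 (by omega)
  refine ⟨E, (Finset.mem_erase.1 hE).1, ?_, hone, hE1, hz⟩
  have := deg_sum hf (mul_one_apply h hχ (three_cj h hχ))
  rw [← Finset.add_sum_erase _ _ (Finset.mem_univ one), hone, dg_one,
    ← Finset.add_sum_erase _ _ hE, hE1, Finset.sum_eq_zero (fun ψ hψ => by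
      simp only [Finset.mem_erase] at hψ
      rw [hz ψ hψ.2.1 hψ.1, zero_mul])] at this
  omega

end squares

section main

variable {u : G} (h : Hyp u) (hu : u ≠ 1)

open scoped Classical in
/-- The characters of degree three. -/
noncomputable def threes (u : G) : Finset (IrrCharacter G) := Finset.univ.filter (Three u)

open scoped Classical in
/-- The positive characters. -/
noncomputable def poss (u : G) : Finset (IrrCharacter G) := Finset.univ.filter (Pos u)

theorem mem_threes {χ : IrrCharacter G} : χ ∈ threes u ↔ Three u χ := by simp [threes]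

theorem mem_poss {χ : IrrCharacter G} : χ ∈ poss u ↔ Pos u χ := by simp [poss]

include h hu in
theorem sum_eq :
    3 * (threes u).card = 1 + ∑ ψ ∈ poss u, dg ψ * (dg ψ - 4) := by
  classical
  have h0 : (∑ ψ : IrrCharacter G, (dg ψ : ℤ) * vl u ψ) = 0 := by
    have := Chars.sum_apply_one_mul (G := G) u
    rw [if_neg hu] at this
    simp only [dg_eq, vl_eq h] at this
    exact_mod_cast this
  rw [← Finset.sum_subset (Finset.subset_univ (insert one (threes u ∪ poss u)))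
    (fun ψ _ hψ => by
      simp only [Finset.mem_insert, Finset.mem_union, mem_threes, mem_poss, not_or] at hψ
      by_cases hv : vl u ψ = 0
      · rw [hv, mul_zero]
      · rcases cases_vl h hψ.1 hv with e | e
        · exact absurd e hψ.2.1
        · exact absurd e hψ.2.2)] at h0
  have hdisj : Disjoint (threes u) (poss u) := Finset.disjoint_left.2 fun ψ a b => by
    have := (mem_threes.1 a).2
    have := (mem_poss.1 b).2
    omega
  rw [Finset.sum_insert (by
      simp only [Finset.mem_union, mem_threes, mem_poss, not_or]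
      exact ⟨fun e => three_ne_one e rfl, fun e => e.1 rfl⟩), dg_one, vl_one,
    Finset.sum_union hdisj,
    Finset.sum_congr rfl (g := fun _ => (-3 : ℤ)) (fun ψ hψ => by
      rw [(mem_threes.1 hψ).1, (mem_threes.1 hψ).2]; rfl),
    Finset.sum_const, nsmul_eq_mul] at h0
  have hP : ∑ ψ ∈ poss u, (dg ψ : ℤ) * vl u ψ = ((∑ ψ ∈ poss u, dg ψ * (dg ψ - 4) : ℕ) : ℤ) := by
    rw [Nat.cast_sum]
    refine Finset.sum_congr rfl fun ψ hψ => ?_
    obtain ⟨h5, hv⟩ := five_le (mem_poss.1 hψ).1 (mem_poss.1 hψ).2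
    rw [hv, Nat.cast_mul, Nat.cast_sub (by omega)]
    rfl
  rw [hP] at h0
  omega

include h hu in
theorem all_real {χ : IrrCharacter G} (hχ : Three u χ) : cj χ = χ := by
  classical
  by_contra hr
  obtain ⟨E, hE1, hE8, hg1, hgE, hg0⟩ := eight h hχ hr
  have hnr : ∀ t, Three u t → cj t ≠ t := by
    intro t ht hrt
    have hne : t ≠ cj χ := fun e => by
      rw [e, cj_cj] at hrt; exact hr hrt.symm
    have h2 := two_le_inner h ht hχ hne
    obtain ⟨φ, hp, hd, ho, hmt, hmφ, hz⟩ := square_real h ht hrt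
    rw [hrt, ← Finset.add_sum_erase _ _ (Finset.mem_univ one), ho] at h2
    have e : ((cj χ : G → ℂ) * (χ : G → ℂ)) = (χ : G → ℂ) * (cj χ : G → ℂ) := mul_comm _ _
    rw [e, hg1, Finset.sum_eq_zero (fun ψ hψ => by
      by_cases hψE : ψ = E
      · subst hψE
        rw [hz ψ hE1 (fun e => by rw [e, ht.1] at hE8; omega)
          (fun e => by rw [e, hd] at hE8; omega), zero_mul]
      · rw [hg0 ψ (Finset.mem_erase.1 hψ).1 hψE, mul_zero])] at h2
    omega
  -- an injection of the other characters of degree three into the positive ones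
  have hex : ∀ t : ((threes u).erase (cj χ)), ∃ φ, 0 < mu ((χ : G → ℂ) * (t.1 : G → ℂ)) φ ∧ Pos u φ :=
    fun t => (nine h hχ (mem_threes.1 (Finset.mem_erase.1 t.2).2) (fun e => by
      have := (Finset.mem_erase.1 t.2).1
      exact this ((cj_cj t.1).symm.trans (congrArg cj e.symm)))).1
  choose φ hφ hφp using hex
  have hinj : Function.Injective φ := by
    intro t t' e
    by_contra hne
    have hne' : t.1 ≠ t'.1 := fun e => hne (Subtype.ext e)
    have ht := mem_threes.1 (Finset.mem_erase.1 t.2).2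
    have ht' := mem_threes.1 (Finset.mem_erase.1 t'.2).2
    have hsum := inner_mul χ t.1 χ t'.1
    rw [inner_chars (isChar_mul _ _) (isChar_mul _ _),
      inner_chars (isChar_mul _ _) (isChar_mul _ _)] at hsum
    have hsum' := Nat.cast_injective hsum
    have h1 : 0 < ∑ ψ : IrrCharacter G, mu ((χ : G → ℂ) * (t.1 : G → ℂ)) ψ * mu ((χ : G → ℂ) * (t'.1 : G → ℂ)) ψ :=
      lt_of_lt_of_le (Nat.mul_pos (hφ t) (e ▸ hφ t'))
        (Finset.single_le_sum (f := fun ψ => mu ((χ : G → ℂ) * (t.1 : G → ℂ)) ψ * mu ((χ : G → ℂ) * (t'.1 : G → ℂ)) ψ)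
          (fun _ _ => Nat.zero_le _) (Finset.mem_univ (φ t)))
    have hh1 : mu ((cj t.1 : G → ℂ) * (t'.1 : G → ℂ)) one = 0 := by
      rw [mu_mul_one, if_neg]
      intro e'
      exact hne' (by rw [← cj_cj t.1, e', cj_cj])
    rw [hsum', ← Finset.sum_subset (Finset.subset_univ ({one, E} : Finset (IrrCharacter G)))
      (fun ψ _ hψ => by
        simp only [Finset.mem_insert, Finset.mem_singleton, not_or] at hψ
        rw [hg0 ψ hψ.1 hψ.2, zero_mul]), Finset.sum_pair (Ne.symm hE1), hg1, hgE, hh1] at h1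
    have hEpos : 0 < mu ((cj t.1 : G → ℂ) * (t'.1 : G → ℂ)) E := by omega
    have hf1 := mul_one_apply h (three_cj h ht) ht'
    have hf := isChar_mul (cj t.1) t'.1
    have hd := deg_le hf hf1 {E}
    rw [Finset.sum_singleton, hE8] at hd
    have hs : ∑ ψ ∈ ({one, E} : Finset (IrrCharacter G)), mu ((cj t.1 : G → ℂ) * (t'.1 : G → ℂ)) ψ * dg ψ = 8 := by
      rw [Finset.sum_pair (Ne.symm hE1), hh1, hE8]; omega
    have htot := deg_sum hf hf1
    rw [← Finset.sum_subset (Finset.subset_univ ({one, E} : Finset (IrrCharacter G)))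
      (fun ψ _ hψ => by rw [exhaust h hf hf1 (by simp) (by rw [hs]) hψ, zero_mul]), hs] at htot
    omega
  have hle : ((threes u).erase (cj χ)).card ≤ (poss u).card := by
    rw [← Fintype.card_coe ((threes u).erase (cj χ)), ← Finset.card_univ]
    exact Finset.card_le_card_of_injOn φ (fun t _ => mem_poss.2 (hφp t)) hinj.injOn
  rw [Finset.card_erase_of_mem (mem_threes.2 (three_cj h hχ))] at hle
  obtain ⟨φ₀, hp₀, hd₀⟩ := (square_nonreal h hχ hr).1
  have hs := sum_eq h hu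
  rw [← Finset.add_sum_erase _ _ (mem_poss.2 hp₀), hd₀] at hs
  have h5 := Finset.card_nsmul_le_sum ((poss u).erase φ₀) (fun ψ => dg ψ * (dg ψ - 4)) 5
    (fun ψ hψ => by
      have := (five_le (mem_poss.1 (Finset.mem_erase.1 hψ).2).1
        (mem_poss.1 (Finset.mem_erase.1 hψ).2).2).1
      exact le_trans (by norm_num) (Nat.mul_le_mul this (show 1 ≤ dg ψ - 4 by omega)))
  rw [Finset.card_erase_of_mem (mem_poss.2 hp₀), smul_eq_mul] at h5
  have hP1 : 0 < (poss u).card := Finset.card_pos.2 ⟨_, mem_poss.2 hp₀⟩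
  omega

include h hu in
/-- The structure of the table at `u`. -/
theorem core : ∃ ρ τ ψ : IrrCharacter G, ρ ≠ τ ∧ ρ ≠ one ∧ τ ≠ one ∧ ψ ≠ one ∧ ψ ≠ ρ ∧ ψ ≠ τ ∧
    dg ρ = 3 ∧ dg τ = 3 ∧ dg ψ = 5 ∧ vl u ρ = -1 ∧ vl u τ = -1 ∧ vl u ψ = 1 ∧
    (∀ g, (ψ : G → ℂ) g = (ρ : G → ℂ) g ^ 2 - (ρ : G → ℂ) g - 1) ∧
    (∀ g, (ψ : G → ℂ) g = (τ : G → ℂ) g ^ 2 - (τ : G → ℂ) g - 1) ∧
    (∀ g, (ψ : G → ℂ) g * (ρ : G → ℂ) g = (ψ : G → ℂ) g * (τ : G → ℂ) g) ∧
    (∀ χ, χ ≠ one → χ ≠ ρ → χ ≠ τ → χ ≠ ψ → vl u χ = 0) := by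
  classical
  have hs := sum_eq h hu
  obtain ⟨ρ, hρ⟩ : (threes u).Nonempty := Finset.card_pos.1 (by omega)
  have hρ3 := mem_threes.1 hρ
  have hrρ := all_real h hu hρ3
  obtain ⟨ψ, hψp, hψd, ho, hmρ, hmψ, hz⟩ := square_real h hρ3 hrρ
  have hval : ∀ t, Three u t → mu ((t : G → ℂ) * (t : G → ℂ)) ψ = 1 ∧
      ∀ g, (ψ : G → ℂ) g = (t : G → ℂ) g ^ 2 - (t : G → ℂ) g - 1 := by
    intro t ht
    have hrt := all_real h hu ht
    obtain ⟨φ, hp, hd, ho', hmt, hmφ, hz'⟩ := square_real h ht hrt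
    have hφ : φ = ψ := by
      by_contra hne
      by_cases hρt : ρ = t
      · subst hρt
        have := hz φ hp.1 (fun e => by rw [e, hρ3.1] at hd; omega) hne
        omega
      · have h2 := two_le_inner h hρ3 ht (by rw [hrt]; exact hρt)
        rw [hrρ, hrt, ← Finset.sum_subset
          (Finset.subset_univ ({one, t, φ} : Finset (IrrCharacter G))) (fun x _ hx => by
            simp only [Finset.mem_insert, Finset.mem_singleton, not_or] at hx
            rw [hz' x hx.1 hx.2.1 hx.2.2, mul_zero])] at h2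
        rw [Finset.sum_insert (by simp [Ne.symm (three_ne_one ht), Ne.symm hp.1]),
          Finset.sum_pair (fun e => by rw [← e, ht.1] at hd; omega), ho, ho',
          hz t (three_ne_one ht) (Ne.symm hρt) (fun e => by rw [← e, ht.1] at hψd; omega),
          hz φ hp.1 (fun e => by rw [e, hρ3.1] at hd; omega) hne] at h2
        omega
    subst hφ
    refine ⟨hmφ, fun g => ?_⟩
    have he := expand (isChar_mul t t) g
    rw [← Finset.sum_subset (Finset.subset_univ ({one, t, φ} : Finset (IrrCharacter G)))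
        (fun x _ hx => by
          simp only [Finset.mem_insert, Finset.mem_singleton, not_or] at hx
          rw [hz' x hx.1 hx.2.1 hx.2.2, Nat.cast_zero, zero_mul]),
      Finset.sum_insert (by simp [Ne.symm (three_ne_one ht), Ne.symm hp.1]),
      Finset.sum_pair (fun e => by rw [← e, ht.1] at hd; omega), ho', hmt, hmφ] at he
    simp only [Pi.mul_apply, one, Nat.cast_one, one_mul] at he
    linear_combination -he
  have hprod : ∀ t, Three u t → ∀ g, (ψ : G → ℂ) g * (ρ : G → ℂ) g = (ψ : G → ℂ) g * (t : G → ℂ) g := by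
    intro t ht g
    have hz1 := congrArg (fun x : IrrCharacter G => (x : G → ℂ) g) hrρ
    have hw1 := congrArg (fun x : IrrCharacter G => (x : G → ℂ) g) (all_real h hu ht)
    simp only [cj_apply] at hz1 hw1
    have a := (hval ρ hρ3).2 g
    have b := (hval t ht).2 g
    have a2 := (hval ρ hρ3).2 (g ^ 2)
    have b2 := (hval t ht).2 (g ^ 2)
    rw [sq_three h hρ3.1, hz1] at a2
    rw [sq_three h ht.1, hw1] at b2
    generalize (ρ : G → ℂ) g = z at *
    generalize (t : G → ℂ) g = w at *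
    generalize (ψ : G → ℂ) g = q at *
    by_cases hzw : z = w
    · rw [hzw]
    · have hw : w = 1 - z := by
        have : (z - w) * (z + w - 1) = 0 := by linear_combination b - a
        rcases mul_eq_zero.1 this with e | e
        · exact absurd (sub_eq_zero.1 e) hzw
        · linear_combination e
      subst hw
      have h2z : (1 - 2 * z : ℂ) ≠ 0 := fun e => hzw (by linear_combination -e)
      have : (1 - 2 * z) * q = 0 := by
        linear_combination (1 - 2 * z) * a + (1 / 2 : ℂ) * b2 - (1 / 2 : ℂ) * a2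
      rw [(mul_eq_zero.1 this).resolve_left h2z, zero_mul, zero_mul]
  have ha5 : 3 * (threes u).card ≤ 15 := by
    have hf := isChar_mul ψ ρ
    have hf1 : ((ψ : G → ℂ) * (ρ : G → ℂ)) 1 = ((15 : ℕ) : ℂ) := by simp [dg_eq, hψd, hρ3.1]; norm_num
    have hd := deg_le hf hf1 (threes u)
    refine le_trans ?_ hd
    rw [mul_comm, ← smul_eq_mul]
    refine Finset.card_nsmul_le_sum _ _ _ fun t ht => ?_
    have ht3 := mem_threes.1 ht
    have e : ((ψ : G → ℂ) * (ρ : G → ℂ)) = (ψ : G → ℂ) * (t : G → ℂ) := funext (hprod t ht3)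
    have e1 : classInner ((ψ : G → ℂ) * (ρ : G → ℂ)) (t : G → ℂ) = 1 := by
      have e2 : classInner ((ψ : G → ℂ) * (t : G → ℂ)) (t : G → ℂ) =
          classInner (ψ : G → ℂ) ((t : G → ℂ) * (t : G → ℂ)) := by
        rw [Chars.classInner_def, Chars.classInner_def]
        refine congrArg _ (Finset.sum_congr rfl fun g _ => ?_)
        have hw1 := congrArg (fun x : IrrCharacter G => (x : G → ℂ) g) (all_real h hu ht3)
        simp only [cj_apply] at hw1
        simp [hw1]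
        ring
      rw [e, e2, ← Chars.classInner_conj_symm, mu_eq (isChar_mul t t), (hval t ht3).1]
      simp
    unfold mu
    rw [e1, ht3.1]
    simp
  have hψm : ψ ∈ poss u := mem_poss.2 hψp
  have hge : ∀ χ ∈ poss u, 5 ≤ dg χ * (dg χ - 4) := fun χ hχ => by
    have := (five_le (mem_poss.1 hχ).1 (mem_poss.1 hχ).2).1
    exact le_trans (by norm_num) (Nat.mul_le_mul this (show 1 ≤ dg χ - 4 by omega))
  have hsplit := hs
  rw [← Finset.add_sum_erase _ _ hψm, hψd] at hsplit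
  have hP : poss u = {ψ} := by
    refine Finset.eq_singleton_iff_unique_mem.2 ⟨hψm, fun χ hχ => ?_⟩
    by_contra hne
    rw [← Finset.add_sum_erase _ _ (Finset.mem_erase.2 ⟨hne, hχ⟩)] at hsplit
    have hd := (five_le (mem_poss.1 hχ).1 (mem_poss.1 hχ).2).1
    have h5 : dg χ = 5 := by
      by_contra h5
      have := Nat.mul_le_mul (show 6 ≤ dg χ by omega) (show 2 ≤ dg χ - 4 by omega)
      omega
    rw [h5] at hsplit
    by_cases hem : ((poss u).erase ψ).erase χ = ∅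
    · rw [hem, Finset.sum_empty] at hsplit
      omega
    · obtain ⟨x, hx⟩ := Finset.nonempty_iff_ne_empty.2 hem
      rw [← Finset.add_sum_erase _ _ hx] at hsplit
      have := hge x (Finset.mem_of_mem_erase (Finset.mem_of_mem_erase hx))
      omega
  have hT : (threes u).card = 2 := by
    rw [hP, Finset.sum_singleton, hψd] at hs
    omega
  obtain ⟨τ, hτ, hne⟩ := Finset.exists_mem_ne (show 1 < (threes u).card by omega) ρ
  have hτ3 := mem_threes.1 hτ
  have hTeq : threes u = {ρ, τ} := (Finset.eq_of_subset_of_card_le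
    (by simp [Finset.insert_subset_iff, hρ, hτ]) (by rw [hT, Finset.card_pair (Ne.symm hne)])).symm
  refine ⟨ρ, τ, ψ, Ne.symm hne, three_ne_one hρ3, three_ne_one hτ3, hψp.1,
    fun e => by rw [e, hρ3.1] at hψd; omega, fun e => by rw [e, hτ3.1] at hψd; omega,
    hρ3.1, hτ3.1, hψd, hρ3.2, hτ3.2, ?_, (hval ρ hρ3).2, (hval τ hτ3).2, hprod τ hτ3, ?_⟩
  · have := (five_le hψp.1 hψp.2).2
    omega
  · intro χ a b c d
    by_contra hv
    rcases cases_vl h a hv with e | e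
    · have := mem_threes.2 e
      rw [hTeq] at this
      simp [b, c] at this
    · have := mem_poss.2 e
      rw [hP, Finset.mem_singleton] at this
      exact d this

end main

end Cfsg.Agent.PermGroups.ConstFour
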