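import Cfsg.Agent.PermGroups.ConstantFour.Core
import Cfsg.Agent.Chars2.ClassSum
import Cfsg.Agent.Core.Icosa

/-!
The quotient by the kernel of a character of degree three is the alternating group of degree five.
-/

set_option autoImplicit false

open Cfsg Cfsg.Agent
open scoped ComplexConjugate

namespace Cfsg.Agent.PermGroups.ConstFour

universe u

variable {G : Type u} [Group G] [Fintype G] {u : G} (h : Hyp u) (hu : u ≠ 1)

include h in
theorem inherit (N : Subgroup G) [N.Normal] [Fintype (G ⧸ N)] : Hyp (u : G ⧸ N) := by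
  intro χ hne
  let χ' : IrrCharacter G :=
    ⟨(χ : G ⧸ N → ℂ) ∘ QuotientGroup.mk' N,
      Chars.isIrrCharacter_comp_surjective χ.2 _ (QuotientGroup.mk'_surjective N)⟩
  have hne' : (χ' : G → ℂ) ≠ fun _ => 1 := fun e => hne (funext fun x => by
    obtain ⟨g, rfl⟩ := QuotientGroup.mk'_surjective N x
    exact congrFun e g)
  simpa [χ'] using h χ' hne'

include h hu in
theorem card_centralizer : Nat.card (Subgroup.centralizer ({u} : Set G)) = 4 := by
  classical
  obtain ⟨ρ, τ, ψ, hρτ, hρ1, hτ1, hψ1, hψρ, hψτ, -, -, -, vρ, vτ, vψ, -, -, -, hz⟩ := core h hu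
  have h1 := Chars.column_orth u u
  rw [if_pos (IsConj.refl u),
    ← Finset.sum_subset (Finset.subset_univ ({one, ρ, τ, ψ} : Finset (IrrCharacter G)))
      (fun χ _ hχ => by
        simp only [Finset.mem_insert, Finset.mem_singleton, not_or] at hχ
        rw [vl_eq h, hz χ hχ.1 hχ.2.1 hχ.2.2.1 hχ.2.2.2]; simp),
    Finset.sum_insert (by simp [Ne.symm hρ1, Ne.symm hτ1, Ne.symm hψ1]),
    Finset.sum_insert (by simp [hρτ, Ne.symm hψρ]), Finset.sum_pair (Ne.symm hψτ)] at h1
  simp only [vl_eq h, vl_one, vρ, vτ, vψ, map_intCast] at h1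
  norm_num at h1
  rw [Nat.card_eq_fintype_card]
  exact_mod_cast h1.symm

include h hu in
theorem card_eq_sixty (h2 : u * u = 1) : Nat.card G = 60 ∧
    ∀ x ∈ Subgroup.centralizer ({u} : Set G), x ≠ 1 → IsConj u x := by
  classical
  obtain ⟨ρ, τ, ψ, hρτ, hρ1, hτ1, hψ1, hψρ, hψτ, dρ, dτ, dψ, vρ, vτ, vψ, -, -, -, hz⟩ := core h hu
  have hC := card_centralizer h hu
  have hui : u⁻¹ = u := inv_eq_of_mul_eq_one_right h2
  set C := Finset.univ.filter (IsConj u) with hCdef
  set M := C.filter (fun x => IsConj u (x * u)) with hMdef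
  -- the number of pairs
  have e1 : ∑ χ : IrrCharacter G, conj (∑ x ∈ C, (χ : G → ℂ) (x * u)) * (χ : G → ℂ) u =
      ((4 * M.card : ℕ) : ℂ) := by
    simp only [map_sum, Finset.sum_mul]
    rw [Finset.sum_comm]
    have : ∀ x ∈ C, ∑ χ : IrrCharacter G, conj ((χ : G → ℂ) (x * u)) * (χ : G → ℂ) u =
        if IsConj u (x * u) then (4 : ℂ) else 0 := fun x _ => by
      rw [Finset.sum_congr rfl (g := fun χ : IrrCharacter G =>
        (χ : G → ℂ) u * conj ((χ : G → ℂ) (x * u))) (fun _ _ => mul_comm _ _),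
        Chars.column_orth u (x * u), hC]
      simp
    rw [Finset.sum_congr rfl this, ← Finset.sum_filter, Finset.sum_const, nsmul_eq_mul, hMdef]
    push_cast
    ring
  have hS : ∀ χ : IrrCharacter G, ∑ x ∈ C, (χ : G → ℂ) (x * u) =
      (C.card : ℂ) * (vl u χ : ℂ) * (vl u χ : ℂ) / (dg χ : ℂ) := fun χ => by
    have hd : (dg χ : ℂ) ≠ 0 := by exact_mod_cast (dg_pos χ).ne'
    rw [eq_div_iff hd, ← dg_eq, ← vl_eq h, hCdef]
    convert Chars2.sum_class_pairs χ.2 u u
  have e2 := e1
  rw [← Finset.sum_subset (Finset.subset_univ ({one, ρ, τ, ψ} : Finset (IrrCharacter G)))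
      (fun χ _ hχ => by
        simp only [Finset.mem_insert, Finset.mem_singleton, not_or] at hχ
        rw [vl_eq h, hz χ hχ.1 hχ.2.1 hχ.2.2.1 hχ.2.2.2]; simp),
    Finset.sum_insert (by simp [Ne.symm hρ1, Ne.symm hτ1, Ne.symm hψ1]),
    Finset.sum_insert (by simp [hρτ, Ne.symm hψρ]), Finset.sum_pair (Ne.symm hψτ),
    hS, hS, hS, hS] at e2
  simp only [vl_eq h, vl_one, vρ, vτ, vψ, dg_one, dρ, dτ, dψ] at e2
  norm_num [map_div₀, map_mul, map_natCast, map_ofNat] at e2
  have e3 : (8 * C.card : ℕ) = 60 * M.card := by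
    have : ((8 * C.card : ℕ) : ℂ) = ((60 * M.card : ℕ) : ℂ) := by
      push_cast
      linear_combination (15 : ℂ) * e2
    exact_mod_cast this
  have hidx := (Subgroup.centralizer ({u} : Set G)).card_mul_index
  rw [hC, ← Chars.card_filter_isConj] at hidx
  have hCcard : 4 * C.card = Nat.card G := by rw [← hidx, hCdef]; congr!
  -- every such element is one of the two further involutions centralizing `u`
  let Cu : Finset G := Finset.univ.filter (fun x => x ∈ Subgroup.centralizer ({u} : Set G))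
  have hCu : Cu.card = 4 := by
    rw [← hC, Nat.card_eq_fintype_card, Fintype.card_subtype]
  have hsub : M ⊆ (Cu.erase 1).erase u := by
    intro x hx
    obtain ⟨hx1, hx2⟩ := Finset.mem_filter.1 hx
    have hxc := (Finset.mem_filter.1 hx1).2
    obtain ⟨a, rfl⟩ := isConj_iff.1 hxc
    obtain ⟨b, hb⟩ := isConj_iff.1 hx2
    have hxx : (a * u * a⁻¹) * (a * u * a⁻¹) = 1 := by
      rw [show (a * u * a⁻¹) * (a * u * a⁻¹) = a * (u * u) * a⁻¹ by group, h2]; group
    have hyy : (a * u * a⁻¹ * u) * (a * u * a⁻¹ * u) = 1 := by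
      rw [← hb, show (b * u * b⁻¹) * (b * u * b⁻¹) = b * (u * u) * b⁻¹ by group, h2]; group
    simp only [Finset.mem_erase, Finset.mem_filter, Finset.mem_univ, true_and, Cu,
      Subgroup.mem_centralizer_singleton_iff]
    refine ⟨fun e => ?_, fun e => ?_, ?_⟩
    · rw [e, h2] at hx2
      exact hu (isConj_one_left.1 hx2)
    · exact hu (by simpa using conj_eq_one_iff.1 e)
    · have e1 : (a * u * a⁻¹)⁻¹ = a * u * a⁻¹ := inv_eq_of_mul_eq_one_right hxx
      have e2 := inv_eq_of_mul_eq_one_right hyy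
      rw [mul_inv_rev, hui, e1] at e2
      exact e2.symm
  have hu' : u ∈ Cu.erase 1 := by simp [Cu, hu, Subgroup.mem_centralizer_singleton_iff]
  have h1' : (1 : G) ∈ Cu := by simp [Cu]
  have hc2 : ((Cu.erase 1).erase u).card = 2 := by
    rw [Finset.card_erase_of_mem hu', Finset.card_erase_of_mem h1', hCu]
  have hM2 : M.card ≤ 2 := hc2 ▸ Finset.card_le_card hsub
  have hG44 : 44 ≤ Nat.card G := by
    have hsum : (∑ χ : IrrCharacter G, dg χ * dg χ) = Nat.card G := by
      have : ((∑ χ : IrrCharacter G, dg χ * dg χ : ℕ) : ℂ) = (Nat.card G : ℂ) := by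
        push_cast
        rw [← Chars.sum_sq_apply_one (G := G)]
        simp [dg_eq, sq]
      exact_mod_cast this
    rw [← hsum]
    refine le_trans (le_of_eq ?_) (Finset.sum_le_univ_sum_of_nonneg (fun _ => Nat.zero_le _)
      (s := ({one, ρ, τ, ψ} : Finset (IrrCharacter G))))
    rw [Finset.sum_insert (by simp [Ne.symm hρ1, Ne.symm hτ1, Ne.symm hψ1]),
      Finset.sum_insert (by simp [hρτ, Ne.symm hψρ]), Finset.sum_pair (Ne.symm hψτ),
      dg_one, dρ, dτ, dψ]; norm_num
  refine ⟨by omega, fun x hx hx1 => ?_⟩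
  by_cases hxu : x = u
  · rw [hxu]
  · have hMe : M = (Cu.erase 1).erase u := Finset.eq_of_subset_of_card_le hsub (by omega)
    have hxM : x ∈ M := by
      rw [hMe]
      simp [Cu, hx1, hxu, hx]
    exact (Finset.mem_filter.1 (Finset.mem_filter.1 hxM).1).2

include h in
theorem simple_of_sixty (h60 : Nat.card G = 60) : IsSimpleGroup G := by
  haveI : Nontrivial G := Finite.one_lt_card_iff_nontrivial.1 (by omega)
  refine ⟨fun N hN => ?_⟩
  by_contra hc
  push Not at hc
  have hq := N.card_eq_card_quotient_mul_card_subgroup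
  rw [h60] at hq
  have hN1 : Nat.card N ≠ 1 := fun e => hc.1 (Subgroup.card_eq_one.1 e)
  have hN60 : Nat.card (G ⧸ N) ≠ 1 := fun e => hc.2 (Subgroup.eq_top_of_card_eq N (by
    rw [e, one_mul] at hq; omega))
  haveI : Group.IsSolvable (G ⧸ N) := Core.Icosa.isSolvable_of_dvd_120
    (Dvd.dvd.trans (Dvd.intro _ hq.symm) (by norm_num))
    (fun e => by rw [e] at hq; omega) (fun e => by rw [e] at hq; omega)
  haveI : Nontrivial (G ⧸ N) := Finite.one_lt_card_iff_nontrivial.1
    (by have := Nat.card_pos (α := G ⧸ N); omega)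
  have hlt := Group.IsSolvable.commutator_lt_top_of_nontrivial (G ⧸ N)
  refine hlt.ne ?_
  rw [commutator_def, ← Subgroup.map_top_of_surjective (QuotientGroup.mk' N)
    (QuotientGroup.mk'_surjective N), ← Subgroup.map_commutator, ← commutator_def,
    commutator_eq_top h]

end Cfsg.Agent.PermGroups.ConstFour
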