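import Cfsg.Agent.PermGroups.ConstantFour.Group
import Cfsg.Agent.Linear.IsoAlternating
import Cfsg.Agent.Core.Cores
import Cfsg.Agent.S4295
import Cfsg.Prelude.Def_CaseTheorems

/-!
Groups with an element `u` such that every nonprincipal irreducible character satisfies
`χ 1 - χ u = 4` or `χ u = 0`.
-/

set_option autoImplicit false
set_option maxHeartbeats 800000

open Cfsg Cfsg.Agent

namespace Cfsg.Agent.PermGroups.ConstFour

universe u

/-- The conclusion. -/
def Concl (G : Type u) [Group G] (u : G) : Prop :=
  IsMulCommutative ↥(oddCore G) ∧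
    ((Nonempty (G ⧸ oddCore G ≃* Matrix.ProjectiveSpecialLinearGroup (Fin 2) (ZMod 5)) ∧
        orderOf u = 2) ∨
      (Nonempty (G ⧸ oddCore G ≃* Matrix.SpecialLinearGroup (Fin 2) (ZMod 5)) ∧ orderOf u = 4))

/-- An automorphism of order two without fixed points inverts every element. -/
theorem inverts_of_fpf {G : Type*} [Group G] [Finite G] (W : Subgroup G) (t : G)
    (hn : ∀ y ∈ W, t * y * t⁻¹ ∈ W) (h2 : ∀ y ∈ W, (t * t) * y = y * (t * t))
    (hf : ∀ y ∈ W, t * y = y * t → y = 1) : ∀ y ∈ W, t * y * t⁻¹ = y⁻¹ := by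
  have hinj : Function.Injective
      (fun y : W => (⟨(y : G)⁻¹ * (t * y * t⁻¹), W.mul_mem (W.inv_mem y.2) (hn y y.2)⟩ : W)) := by
    rintro ⟨a, ha⟩ ⟨b, hb⟩ e
    have e' : a⁻¹ * (t * a * t⁻¹) = b⁻¹ * (t * b * t⁻¹) := congrArg Subtype.val e
    have hm : b * a⁻¹ = 1 := hf _ (W.mul_mem hb (W.inv_mem ha)) (by
      calc t * (b * a⁻¹) = b * (b⁻¹ * (t * b * t⁻¹)) * (t * a⁻¹) := by group
        _ = b * (a⁻¹ * (t * a * t⁻¹)) * (t * a⁻¹) := by rw [e']
        _ = b * a⁻¹ * t := by group)
    exact Subtype.ext (mul_inv_eq_one.1 hm).symm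
  intro x hx
  obtain ⟨y, hy⟩ := (Finite.injective_iff_surjective.1 hinj) ⟨x, hx⟩
  have e : (y : G)⁻¹ * (t * y * t⁻¹) = x := congrArg Subtype.val hy
  rw [← e]
  calc t * ((y : G)⁻¹ * (t * y * t⁻¹)) * t⁻¹
      = t * (y : G)⁻¹ * t⁻¹ * ((t * t) * y) * (t * t)⁻¹ := by group
    _ = t * (y : G)⁻¹ * t⁻¹ * (y * (t * t)) * (t * t)⁻¹ := by rw [h2 _ y.2]
    _ = ((y : G)⁻¹ * (t * y * t⁻¹))⁻¹ := by group

theorem comm_of_inverts {G : Type*} [Group G] (W : Subgroup G) (t : G)
    (h : ∀ y ∈ W, t * y * t⁻¹ = y⁻¹) (a : G) (ha : a ∈ W) (b : G) (hb : b ∈ W) :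
    a * b = b * a := by
  have h1 := h _ (W.mul_mem (W.inv_mem ha) (W.inv_mem hb))
  rw [show t * (a⁻¹ * b⁻¹) * t⁻¹ = (t * a⁻¹ * t⁻¹) * (t * b⁻¹ * t⁻¹) by group,
    h _ (W.inv_mem ha), h _ (W.inv_mem hb)] at h1
  simpa using h1

/-- A group of exponent two is commutative. -/
theorem comm_of_mul_self {G : Type*} [Group G] {a b : G} (ha : a * a = 1) (hb : b * b = 1)
    (hab : (a * b) * (a * b) = 1) : a * b = b * a := by
  have := inv_eq_of_mul_eq_one_right hab
  rw [mul_inv_rev, inv_eq_of_mul_eq_one_right ha, inv_eq_of_mul_eq_one_right hb] at this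
  exact this.symm

theorem main {G : Type u} [Group G] [Fintype G] {u : G} (h : Hyp u) (hu : u ≠ 1) : Concl G u := by
  classical
  haveI : Fact (Nat.Prime 2) := ⟨Nat.prime_two⟩
  obtain ⟨ρ, τ, ψ, -, -, -, -, -, -, dρ, -, -, vρ, -, -, -, -, -, -⟩ := core h hu
  let K : Subgroup G := Chars.charKer (Chars.irr_isCharacter ρ)
  haveI hKn : K.Normal := Chars.charKer_normal (Chars.irr_isCharacter ρ)
  have huK : u ∉ K := fun e => by
    rw [Chars.mem_charKer, vl_eq h, dg_eq, vρ, dρ] at e
    norm_num at e
  have hu2K : u * u ∈ K := by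
    rw [Chars.mem_charKer, ← sq, sq_three h dρ, vl_eq h, dg_eq, vρ, dρ]
    norm_num
  haveI : Fintype (G ⧸ K) := Fintype.ofFinite _
  set π := QuotientGroup.mk' K with hπ
  have hπK : ∀ x, π x = 1 ↔ x ∈ K := fun x => QuotientGroup.eq_one_iff x
  have hūne : π u ≠ 1 := fun e => huK ((hπK u).1 e)
  have hH : Hyp (π u) := inherit h K
  have hū2 : π u * π u = 1 := by rw [← map_mul]; exact (hπK _).2 hu2K
  obtain ⟨h60, hconjH⟩ := card_eq_sixty hH hūne hū2
  haveI : IsSimpleGroup (G ⧸ K) := simple_of_sixty hH h60
  have hCbar := card_centralizer hH hūne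
  have hC := card_centralizer h hu
  set P : Subgroup G := (Subgroup.centralizer ({π u} : Set (G ⧸ K))).comap π with hPdef
  have hcardG : Nat.card G = 60 * Nat.card K := by
    rw [K.card_eq_card_quotient_mul_card_subgroup, h60]
  have hPcard : Nat.card P = 4 * Nat.card K := by
    have e1 := P.card_mul_index
    have e2 := (Subgroup.centralizer ({π u} : Set (G ⧸ K))).card_mul_index
    have e3 : P.index = (Subgroup.centralizer ({π u} : Set (G ⧸ K))).index :=
      Subgroup.index_comap_of_surjective _ (QuotientGroup.mk'_surjective K)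
    rw [h60, hCbar] at e2
    rw [hcardG, e3, show (Subgroup.centralizer ({π u} : Set (G ⧸ K))).index = 15 by omega] at e1
    omega
  have hmemP : ∀ x, x ∈ P ↔ π x * π u = π u * π x := fun x => by
    rw [hPdef, Subgroup.mem_comap, Subgroup.mem_centralizer_singleton_iff]
  -- the coset of `u` is fused
  have hcoset : ∀ k ∈ K, IsConj u (u * k) := by
    let Pf : Finset G := Finset.univ.filter (fun x => x ∈ P)
    let Kf : Finset G := (Finset.univ.filter (fun x => x ∈ K)).image (u * ·)
    have hPf : Pf.card = 4 * Nat.card K := by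
      rw [← hPcard, Nat.card_eq_fintype_card, Fintype.card_subtype]
    have hKf : Kf.card = Nat.card K := by
      rw [Finset.card_image_of_injective _ (mul_right_injective u), Nat.card_eq_fintype_card,
        Fintype.card_subtype]
    have himg : Pf.image (fun x => x * u * x⁻¹) ⊆ Kf := by
      intro y hy
      obtain ⟨x, hx, rfl⟩ := Finset.mem_image.1 hy
      refine Finset.mem_image.2 ⟨u⁻¹ * (x * u * x⁻¹), Finset.mem_filter.2 ⟨Finset.mem_univ _, ?_⟩,
        by group⟩
      refine (hπK _).1 ?_
      rw [map_mul, map_mul, map_mul, map_inv, map_inv,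
        (hmemP x).1 (Finset.mem_filter.1 hx).2]
      group
    have hle : Pf.card ≤ 4 * (Pf.image (fun x => x * u * x⁻¹)).card := by
      refine Finset.card_le_mul_card_image _ _ fun y hy => ?_
      obtain ⟨a, -, rfl⟩ := Finset.mem_image.1 hy
      have hc4 : (Finset.univ.filter (fun x => x ∈ Subgroup.centralizer ({u} : Set G))).card = 4 := by
        rw [← hC, Nat.card_eq_fintype_card, Fintype.card_subtype]
      rw [← hc4]
      refine Finset.card_le_card_of_injOn (fun x => a⁻¹ * x) (fun x hx => ?_)
        ((mul_right_injective a⁻¹).injOn)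
      obtain ⟨-, hx⟩ := Finset.mem_filter.1 hx
      refine Finset.mem_filter.2 ⟨Finset.mem_univ _, Subgroup.mem_centralizer_singleton_iff.2 ?_⟩
      calc a⁻¹ * x * u = a⁻¹ * (x * u * x⁻¹) * x := by group
        _ = a⁻¹ * (a * u * a⁻¹) * x := by rw [hx]
        _ = u * (a⁻¹ * x) := by group
    have heq := Finset.eq_of_subset_of_card_le himg (by omega)
    intro k hk
    obtain ⟨x, -, hx⟩ := Finset.mem_image.1
      (show u * k ∈ Pf.image (fun x => x * u * x⁻¹) by
        rw [heq]
        exact Finset.mem_image.2 ⟨k, Finset.mem_filter.2 ⟨Finset.mem_univ _, hk⟩, rfl⟩)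
    exact isConj_iff.2 ⟨x, hx⟩
  have hlift : ∀ g, IsConj (π u) (π g) → IsConj u g := by
    intro g hg
    obtain ⟨c, hc⟩ := isConj_iff.1 hg
    obtain ⟨a, rfl⟩ := QuotientGroup.mk'_surjective K c
    rw [← hπ] at hc
    have hk : u⁻¹ * (a⁻¹ * g * a) ∈ K := (hπK _).1 (by
      rw [map_mul, map_mul, map_mul, map_inv, map_inv, ← hc]; group)
    refine (hcoset _ hk).trans (isConj_iff.2 ⟨a, by group⟩)
  have hPout : ∀ g ∈ P, g ∉ K → IsConj u g := fun g hg hgK => hlift g
    (hconjH _ (Subgroup.mem_centralizer_singleton_iff.2 ((hmemP g).1 hg))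
      (fun e => hgK ((hπK g).1 e)))
  have huP : u ∈ P := (hmemP u).2 rfl
  have hKP : K ≤ P := fun k hk => (hmemP k).2 (by rw [(hπK k).2 hk, one_mul, mul_one])
  have hC4 : ∀ g, IsConj u g → Nat.card (Subgroup.centralizer ({g} : Set G)) = 4 := by
    intro g hg
    obtain ⟨a, rfl⟩ := isConj_iff.1 hg
    rw [← hC]
    refine (Nat.card_congr (((MulAut.conj a).toEquiv).subtypeEquiv fun x => ?_)).symm
    simp only [Subgroup.mem_centralizer_singleton_iff, MulEquiv.toEquiv_eq_coe,
      EquivLike.coe_coe, ← MulAut.conj_apply, ← map_mul, EmbeddingLike.apply_eq_iff_eq]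
  have hordG : ∀ g, IsConj u g → orderOf g = orderOf u := by
    intro g hg
    obtain ⟨a, rfl⟩ := isConj_iff.1 hg
    rw [← MulAut.conj_apply, MulEquiv.orderOf_eq]
  by_cases h2 : u * u = 1
  · -- `u` is an involution
    have hou : orderOf u = 2 := orderOf_eq_prime (by rw [sq, h2]) hu
    have hinvol : ∀ g ∈ P, g ∉ K → g * g = 1 := fun g hg hgK => by
      rw [← sq, ← hou, ← hordG g (hPout g hg hgK)]; exact pow_orderOf_eq_one g
    have hinv : ∀ g ∈ P, g ∉ K → ∀ k ∈ K, g * k * g⁻¹ = k⁻¹ := by
      intro g hg hgK k hk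
      have h1 := hinvol (g * k) (P.mul_mem hg (hKP hk))
        (fun e => hgK (by simpa using K.mul_mem e (K.inv_mem hk)))
      have h3 : g⁻¹ = g := inv_eq_of_mul_eq_one_right (hinvol g hg hgK)
      calc g * k * g⁻¹ = (g * k * (g * k)) * k⁻¹ * (g⁻¹ * g⁻¹) := by group
        _ = k⁻¹ := by rw [h1, one_mul, h3, hinvol g hg hgK, mul_one]
    obtain ⟨v, hvP, hvK, hvu⟩ : ∃ v, v ∈ P ∧ v ∉ K ∧ π v ≠ π u := by
      by_contra hcon
      push Not at hcon
      have hle : Nat.card (Subgroup.centralizer ({π u} : Set (G ⧸ K))) ≤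
          ({1, π u} : Finset (G ⧸ K)).card := by
        rw [Nat.card_eq_fintype_card, Fintype.card_subtype]
        refine Finset.card_le_card fun y hy => ?_
        obtain ⟨x, rfl⟩ := QuotientGroup.mk'_surjective K y
        simp only [Finset.mem_insert, Finset.mem_singleton]
        by_cases hx : x ∈ K
        · exact Or.inl ((hπK x).2 hx)
        · exact Or.inr (hcon x (Finset.mem_filter.1 hy).2 hx)
      have := Finset.card_le_two (a := (1 : G ⧸ K)) (b := π u)
      omega
    have huv : u * v ∉ K := fun e => hvu (by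
      have := (hπK _).2 e
      rw [map_mul] at this
      rw [← inv_eq_of_mul_eq_one_right this, inv_eq_of_mul_eq_one_right hū2])
    have hk2 : ∀ k ∈ K, k * k = 1 ∧ u * k = k * u := by
      intro k hk
      have a := hinv (u * v) (P.mul_mem huP hvP) huv k hk
      rw [show u * v * k * (u * v)⁻¹ = u * (v * k * v⁻¹) * u⁻¹ by group, hinv v hvP hvK k hk,
        hinv u huP huK _ (K.inv_mem hk), inv_inv] at a
      have hk1 : k * k = 1 := by nth_rewrite 1 [a]; exact inv_mul_cancel k
      refine ⟨hk1, ?_⟩
      have b := hinv u huP huK k hk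
      rw [← a, mul_inv_eq_iff_eq_mul] at b
      exact b
    let C := Subgroup.centralizer (K : Set G)
    haveI : K.Normal := hKn
    haveI hCn : C.Normal := Subgroup.normal_centralizer
    have huC : u ∈ C := Subgroup.mem_centralizer_iff.2 fun k hk => ((hk2 k hk).2).symm
    have hKC : K ≤ C := fun k hk => Subgroup.mem_centralizer_iff.2 fun l hl =>
      comm_of_mul_self (hk2 l hl).1 (hk2 k hk).1 (hk2 _ (K.mul_mem hl hk)).1
    have hCtop : C = ⊤ := by
      rcases (Subgroup.Normal.map hCn π (QuotientGroup.mk'_surjective K)).eq_bot_or_eq_top with e | e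
      · exact absurd ((Subgroup.map_eq_bot_iff _).1 e huC) (by
          rw [QuotientGroup.ker_mk']; exact huK)
      · refine eq_top_iff.2 fun g _ => ?_
        obtain ⟨c, hc, hcg⟩ := (e ▸ Subgroup.mem_top (π g) : π g ∈ C.map π)
        have : c⁻¹ * g ∈ C := hKC ((hπK _).1 (by rw [map_mul, map_inv, hcg, inv_mul_cancel]))
        simpa using C.mul_mem hc this
    have hKcent : ∀ k ∈ K, ∀ g : G, g * k = k * g := fun k hk g =>
      (Subgroup.mem_centralizer_iff.1 (hCtop ▸ Subgroup.mem_top g : g ∈ C) k hk).symm
    have hK1 : K = ⊥ := by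
      rw [eq_bot_iff]
      intro k hk
      rw [Subgroup.mem_bot]
      by_contra hk1
      have hlt : Nat.card K < 4 := by
        rw [← hC]
        refine lt_of_le_of_ne (Subgroup.card_le_of_le fun x hx =>
          Subgroup.mem_centralizer_singleton_iff.2 (hk2 x hx).2.symm) fun e => ?_
        have := Subgroup.eq_of_le_of_card_ge (fun x hx =>
          Subgroup.mem_centralizer_singleton_iff.2 (hk2 x hx).2.symm) e.symm.le
        exact huK (this ▸ Subgroup.mem_centralizer_singleton_iff.2 rfl)
      have hKle : Nat.card K ≤ 3 := by omega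
      have hPc : ∀ a ∈ P, ∀ b ∈ P, a * b = b * a := by
        have hsq : ∀ a ∈ P, a * a = 1 := fun a ha => by
          by_cases haK : a ∈ K
          · exact (hk2 a haK).1
          · exact hinvol a ha haK
        exact fun a ha b hb => comm_of_mul_self (hsq a ha) (hsq b hb) (hsq _ (P.mul_mem ha hb))
      letI : CommGroup P :=
        { (inferInstance : Group P) with mul_comm := fun a b => Subtype.ext (hPc a a.2 b b.2) }
      let f : G →* P := MonoidHom.transfer (MonoidHom.id P)
      have hidx : P.index = 15 := by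
        have e1 := P.card_mul_index
        rw [hPcard, hcardG] at e1
        have hKpos := Nat.card_pos (α := K)
        nlinarith
      have hf : f k = 1 := by
        have : commutator G ≤ f.ker := Abelianization.commutator_subset_ker f
        rw [commutator_eq_top h] at this
        exact MonoidHom.mem_ker.1 (this (Subgroup.mem_top k))
      have key : ∀ (n : ℕ) (g₀ : G), g₀⁻¹ * k ^ n * g₀ ∈ P → g₀⁻¹ * k ^ n * g₀ = k ^ n :=
        fun n g₀ _ => by rw [mul_assoc, ← hKcent _ (K.pow_mem hk n) g₀, inv_mul_cancel_left]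
      have := MonoidHom.transfer_eq_pow (MonoidHom.id P) k key
      rw [show MonoidHom.transfer (MonoidHom.id P) k = f k from rfl, hf] at this
      have h15 : k ^ P.index = 1 := (congrArg Subtype.val this).symm
      rw [hidx, show k ^ 15 = (k * k) ^ 7 * k by rw [← sq, ← pow_mul, ← pow_succ],
        (hk2 k hk).1, one_pow, one_mul] at h15
      exact hk1 h15
    have hO : oddCore G = ⊥ := by
      rcases (Subgroup.Normal.map (inferInstance : (oddCore G).Normal) π
        (QuotientGroup.mk'_surjective K)).eq_bot_or_eq_top with e | e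
      · rw [eq_bot_iff, ← hK1]
        have := (Subgroup.map_eq_bot_iff _).1 e
        rwa [QuotientGroup.ker_mk'] at this
      · exfalso
        have hd := (oddCore G).card_map_dvd π
        rw [e, Subgroup.card_top, h60] at hd
        have := Nat.coprime_two_right.1 (Core.card_pPrimeCore_coprime 2 G)
        exact absurd (dvd_trans (by norm_num : 2 ∣ 60) hd) this.not_two_dvd_nat
    refine ⟨IsMulCommutative.of_comm fun a b => ?_, Or.inl ⟨?_, hou⟩⟩
    · have ha := a.2
      have hb := b.2
      rw [Subtype.ext_iff]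
      simp only [hO, Subgroup.mem_bot] at ha hb
      simp [ha, hb]
    · obtain ⟨e⟩ := S0494.result (G := G ⧸ K) h60
      obtain ⟨e'⟩ := Linear.PSL2_five_iso (F := ZMod 5) (ZMod.card 5)
      exact ⟨((QuotientGroup.quotientMulEquivOfEq (hO.trans hK1.symm)).trans e).trans e'.symm⟩
  · -- `u` has order four
    have hou : orderOf u = 4 := by
      have hd : orderOf u ∣ 4 := hC ▸ Subgroup.orderOf_dvd_natCard _
        (Subgroup.mem_centralizer_singleton_iff.2 rfl)
      have h1 : orderOf u ≠ 1 := fun e => hu (orderOf_eq_one_iff.1 e)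
      have h2' : orderOf u ≠ 2 := fun e => h2 (by rw [← sq, ← e]; exact pow_orderOf_eq_one u)
      have := Nat.le_of_dvd (by norm_num) hd
      interval_cases hn : orderOf u <;> simp_all
    -- centralizers of elements outside `K` inside `K`
    have hCK : ∀ g ∈ P, g ∉ K → ∀ y ∈ K, g * y = y * g → y = 1 ∨ y = g * g := by
      intro g hg hgK y hy hgy
      have hc := hPout g hg hgK
      have ho : orderOf g = 4 := (hordG g hc).trans hou
      have heq : Subgroup.zpowers g = Subgroup.centralizer ({g} : Set G) :=
        Subgroup.eq_of_le_of_card_ge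
          (Subgroup.zpowers_le.2 (Subgroup.mem_centralizer_singleton_iff.2 rfl))
          (by rw [hC4 g hc, Nat.card_zpowers, ho])
      have hy' : y ∈ Subgroup.zpowers g :=
        heq ▸ Subgroup.mem_centralizer_singleton_iff.2 hgy.symm
      obtain ⟨n, rfl⟩ := (Submonoid.mem_powers_iff _ _).1 (mem_powers_iff_mem_zpowers.2 hy')
      rw [← pow_mod_orderOf, ho] at hy ⊢
      have hg4 : g ^ 4 = 1 := ho ▸ pow_orderOf_eq_one g
      have := Nat.mod_lt n (show 4 > 0 by norm_num)
      interval_cases n % 4
      · exact Or.inl (pow_zero g)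
      · exact absurd (by simpa using hy) hgK
      · exact Or.inr (sq g)
      · have : g ^ 4 * (g ^ 3)⁻¹ ∈ K := by
          rw [hg4, one_mul]; exact K.inv_mem hy
        exact absurd (by simpa [pow_succ] using this) hgK
    -- a Sylow subgroup containing `u`
    obtain ⟨T, hT⟩ := (IsPGroup.of_card (n := 2) (G := Subgroup.zpowers u) (p := 2)
      (by rw [Nat.card_zpowers, hou]; norm_num)).exists_le_sylow
    have huT : u ∈ (T : Subgroup G) := hT (Subgroup.mem_zpowers u)
    set TH := (T : Subgroup G).map π with hTH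
    have hTHc : Nat.card TH = 4 := by
      have := (T.mapSurjective (QuotientGroup.mk'_surjective K)).card_eq_multiplicity
      rw [Sylow.coe_mapSurjective, h60] at this
      rw [hTH, hπ, this]
      have hf : (60 : ℕ).factorization 2 = 2 := by
        refine le_antisymm ?_ ((Nat.Prime.pow_dvd_iff_le_factorization Nat.prime_two
          (show (60 : ℕ) ≠ 0 by norm_num)).1 (by norm_num))
        by_contra hc
        have h8 : 2 ^ 3 ∣ 60 := (Nat.Prime.pow_dvd_iff_le_factorization Nat.prime_two
          (show (60 : ℕ) ≠ 0 by norm_num)).2 (by omega)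
        norm_num at h8
      rw [hf]; norm_num
    haveI : IsMulCommutative TH :=
      IsPGroup.isMulCommutative_of_card_eq_prime_sq (p := 2) (by rw [hTHc]; norm_num)
    have hTHle : TH ≤ Subgroup.centralizer ({π u} : Set (G ⧸ K)) := fun y hy =>
      Subgroup.mem_centralizer_singleton_iff.2 (congrArg Subtype.val
        (mul_comm' (⟨y, hy⟩ : TH) ⟨π u, Subgroup.mem_map_of_mem π huT⟩))
    have hTHeq : TH = Subgroup.centralizer ({π u} : Set (G ⧸ K)) :=
      Subgroup.eq_of_le_of_card_ge hTHle (by rw [hTHc, hCbar])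
    have hTP : (T : Subgroup G) ≤ P := fun x hx => Subgroup.mem_comap.2
      (hTHle (Subgroup.mem_map_of_mem π hx))
    -- the central involution
    set z := u * u with hz
    have hzT : z ∈ (T : Subgroup G) := (T : Subgroup G).mul_mem huT huT
    have hzcent : ∀ g ∈ (T : Subgroup G), g * z = z * g := by
      haveI : Nontrivial (T : Subgroup G) := ⟨⟨⟨u, huT⟩, 1, fun e => hu (congrArg Subtype.val e)⟩⟩
      haveI := T.2.center_nontrivial
      obtain ⟨c, hc⟩ := exists_prime_orderOf_dvd_card' (G := Subgroup.center (T : Subgroup G)) 2 (by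
        obtain ⟨k, hk⟩ := (T.2.to_subgroup (Subgroup.center (T : Subgroup G))).exists_card_eq
        have := Finite.one_lt_card (α := Subgroup.center (T : Subgroup G))
        rcases k with _ | k
        · rw [hk, pow_zero] at this; omega
        · rw [hk]; exact dvd_pow_self 2 (Nat.succ_ne_zero k))
      have hcg : ∀ g (hg : g ∈ (T : Subgroup G)), g * ((c : (T : Subgroup G)) : G) =
          ((c : (T : Subgroup G)) : G) * g := fun g hg =>
        congrArg Subtype.val (Subgroup.mem_center_iff.1 c.2 ⟨g, hg⟩)
      have hco : orderOf ((c : (T : Subgroup G)) : G) = 2 := by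
        rw [Subgroup.orderOf_coe, Subgroup.orderOf_coe, hc]
      by_cases hcK : ((c : (T : Subgroup G)) : G) ∈ K
      · rcases hCK u huP huK _ hcK (hcg u huT) with e | e
        · rw [e, orderOf_one] at hco; omega
        · intro g hg
          rw [hz, ← e]; exact hcg g hg
      · have := (hordG _ (hPout _ (hTP (c : (T : Subgroup G)).2) hcK)).trans hou
        omega
    have hsq : ∀ g ∈ (T : Subgroup G), g ∉ K → g * g = z := fun g hg hgK => by
      rcases hCK g (hTP hg) hgK z hu2K (hzcent g hg) with e | e
      · exact absurd e h2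
      · exact e.symm
    obtain ⟨v, hvT, hvK, hvu⟩ : ∃ v, v ∈ (T : Subgroup G) ∧ v ∉ K ∧ π v ≠ π u := by
      by_contra hcon
      push Not at hcon
      have hle : Nat.card TH ≤ ({1, π u} : Finset (G ⧸ K)).card := by
        rw [Nat.card_eq_fintype_card, Fintype.card_subtype]
        refine Finset.card_le_card fun y hy => ?_
        obtain ⟨x, hx, rfl⟩ := (Finset.mem_filter.1 hy).2
        simp only [Finset.mem_insert, Finset.mem_singleton]
        by_cases hxK : x ∈ K
        · exact Or.inl ((hπK x).2 hxK)
        · exact Or.inr (hcon x hx hxK)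
      have := Finset.card_le_two (a := (1 : G ⧸ K)) (b := π u)
      omega
    have huv : u * v ∉ K := fun e => hvu (by
      have := (hπK _).2 e
      rw [map_mul] at this
      rw [← inv_eq_of_mul_eq_one_right this, inv_eq_of_mul_eq_one_right hū2])
    have huvT : u * v ∈ (T : Subgroup G) := (T : Subgroup G).mul_mem huT hvT
    have hT0 : ∀ y ∈ (T : Subgroup G), y ∈ K → y = 1 ∨ y = z := by
      intro y hyT hyK
      have key : ∀ g ∈ (T : Subgroup G), g ∉ K → ∀ x ∈ (T : Subgroup G), x ∈ K →
          g * x * g⁻¹ = x⁻¹ := by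
        intro g hg hgK x hx hxK
        have h1 := hsq (g * x) ((T : Subgroup G).mul_mem hg hx)
          (fun e => hgK (by simpa using K.mul_mem e (K.inv_mem hxK)))
        have h3 := hsq g hg hgK
        calc g * x * g⁻¹ = (g * x * (g * x)) * x⁻¹ * (g * g)⁻¹ := by group
          _ = z * x⁻¹ * z⁻¹ := by rw [h1, h3]
          _ = x⁻¹ := by rw [← hzcent _ ((T : Subgroup G).inv_mem hx), mul_inv_cancel_right]
      have a := key (u * v) huvT huv y hyT hyK
      rw [show u * v * y * (u * v)⁻¹ = u * (v * y * v⁻¹) * u⁻¹ by group, key v hvT hvK y hyT hyK,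
        key u huT huK _ ((T : Subgroup G).inv_mem hyT) (K.inv_mem hyK), inv_inv] at a
      have b := key u huT huK y hyT hyK
      rw [← a, mul_inv_eq_iff_eq_mul] at b
      exact hCK u huP huK y hyK b
    -- the order of `T`
    have hT8 : Nat.card (T : Subgroup G) = 8 := by
      have e1 := (K.subgroupOf (T : Subgroup G)).card_mul_index
      have e2 : (K.subgroupOf (T : Subgroup G)).index = Nat.card TH := by
        rw [show TH = (π.comp (T : Subgroup G).subtype).range by
          rw [MonoidHom.range_comp, Subgroup.range_subtype], ← Subgroup.index_ker]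
        congr 1
        ext x
        simp [Subgroup.mem_subgroupOf, MonoidHom.mem_ker, hπ]
      have e3 : Nat.card (K.subgroupOf (T : Subgroup G)) = 2 := by
        rw [Nat.card_eq_fintype_card, Fintype.card_subtype]
        have : (Finset.univ.filter (fun x : (T : Subgroup G) => x ∈ K.subgroupOf (T : Subgroup G))) =
            {1, ⟨z, hzT⟩} := by
          ext x
          simp only [Finset.mem_filter, Finset.mem_univ, true_and, Finset.mem_insert,
            Finset.mem_singleton, Subgroup.mem_subgroupOf]
          constructor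
          · intro hx
            rcases hT0 x x.2 hx with e | e
            · exact Or.inl (Subtype.ext e)
            · exact Or.inr (Subtype.ext e)
          · rintro (rfl | rfl)
            · exact K.one_mem
            · exact hu2K
        rw [this, Finset.card_pair (fun e => h2 (congrArg Subtype.val e).symm)]
      rw [e2, e3, hTHc] at e1
      omega
    -- the normal complement in `K`
    have hdvd := T.card_eq_multiplicity
    rw [hT8] at hdvd
    have hK2 : 2 ∣ Nat.card K ∧ ¬ 4 ∣ Nat.card K := by
      have h8 : 8 ∣ Nat.card G := hT8 ▸ Subgroup.card_subgroup_dvd_card _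
      have h16 : ¬ 16 ∣ Nat.card G := fun h16 => by
        have := (Nat.Prime.pow_dvd_iff_le_factorization Nat.prime_two
          (Nat.card_pos (α := G)).ne').1 (show 2 ^ 4 ∣ Nat.card G by simpa using h16)
        have := Nat.pow_le_pow_right (show 0 < 2 by norm_num) this
        omega
      rw [hcardG] at h8 h16
      omega
    obtain ⟨S⟩ : Nonempty (Sylow 2 K) := inferInstance
    have hS2 : Nat.card (S : Subgroup K) = 2 := by
      have := S.card_eq_multiplicity
      have h1 : 1 ≤ (Nat.card K).factorization 2 :=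
        (Nat.Prime.pow_dvd_iff_le_factorization Nat.prime_two (Nat.card_pos (α := K)).ne').1
          (by simpa using hK2.1)
      have h3 : (Nat.card K).factorization 2 < 2 := by
        by_contra hc
        have h4 : 2 ^ 2 ∣ Nat.card K :=
          (Nat.Prime.pow_dvd_iff_le_factorization Nat.prime_two (Nat.card_pos (α := K)).ne').2
            (not_lt.1 hc)
        exact hK2.2 h4
      rw [this, show (Nat.card K).factorization 2 = 1 by omega, pow_one]
    have hmin : (Nat.card K).minFac = 2 := (Nat.minFac_eq_two_iff _).2 hK2.1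
    haveI : IsCyclic (S : Subgroup K) := isCyclic_of_prime_card hS2
    obtain ⟨N, hNc⟩ : ∃ N : Subgroup K, N.Normal ∧ Subgroup.IsComplement' N (S : Subgroup K) :=
      ⟨_, inferInstance, IsCyclic.isComplement' hmin this⟩
    haveI := hNc.1
    have hNcard : Nat.card N * 2 = Nat.card K := hS2 ▸ hNc.2.card_mul
    have hNodd : Odd (Nat.card N) := by
      rw [Nat.odd_iff]
      by_contra hc
      exact hK2.2 (by omega)
    have hNidx : N.index = 2 := by rw [hNc.2.symm.index_eq_card, hS2]
    have hodd_mem : ∀ x : K, Odd (orderOf x) → x ∈ N := by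
      intro x hx
      have := Subgroup.sq_mem_of_index_two hNidx x
      have hmem : x ^ (orderOf x + 1) ∈ N := by
        obtain ⟨m, hm⟩ := hx
        rw [hm, show 2 * m + 1 + 1 = 2 * (m + 1) by ring, pow_mul]
        exact N.pow_mem this _
      rwa [pow_succ, pow_orderOf_eq_one, one_mul] at hmem
    set O := N.map K.subtype with hOdef
    have hOodd : Odd (Nat.card O) := by
      rw [hOdef, Subgroup.card_map_of_injective K.subtype_injective]; exact hNodd
    haveI hOn : O.Normal := by
      refine ⟨fun n hn g => ?_⟩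
      have hnd : Odd (orderOf n) := hOodd.of_dvd_nat (Subgroup.orderOf_dvd_natCard _ hn)
      obtain ⟨m, -, rfl⟩ := hn
      refine ⟨⟨g * m * g⁻¹, hKn.conj_mem m m.2 g⟩, hodd_mem _ ?_, rfl⟩
      rw [← Subgroup.orderOf_coe]
      show Odd (orderOf (MulAut.conj g (m : G)))
      rw [MulEquiv.orderOf_eq]
      exact hnd
    have hOK : O ≤ K := Subgroup.map_subtype_le N
    have hOeq : oddCore G = O := by
      refine le_antisymm ?_ (Core.le_pPrimeCore hOn (Nat.coprime_two_right.2 hOodd))
      have hodd := Nat.coprime_two_right.1 (Core.card_pPrimeCore_coprime 2 G)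
      have hle : oddCore G ≤ K := by
        rcases (Subgroup.Normal.map (inferInstance : (oddCore G).Normal) π
          (QuotientGroup.mk'_surjective K)).eq_bot_or_eq_top with e | e
        · have := (Subgroup.map_eq_bot_iff _).1 e
          rwa [QuotientGroup.ker_mk'] at this
        · exfalso
          have hd := (oddCore G).card_map_dvd π
          rw [e, Subgroup.card_top, h60] at hd
          exact absurd (dvd_trans (by norm_num : 2 ∣ 60) hd) hodd.not_two_dvd_nat
      intro x hx
      refine ⟨⟨x, hle hx⟩, hodd_mem _ ?_, rfl⟩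
      rw [← Subgroup.orderOf_coe]
      exact hodd.of_dvd_nat (Subgroup.orderOf_dvd_natCard _ hx)
    have hodd1 : ∀ y ∈ O, y * y = 1 → y = 1 := by
      intro y hy hyy
      by_contra hy1
      have : orderOf y = 2 := orderOf_eq_prime (by rw [sq, hyy]) hy1
      exact hOodd.not_two_dvd_nat (this ▸ Subgroup.orderOf_dvd_natCard _ hy)
    have hzz : z * z = 1 := by
      rw [hz, show u * u * (u * u) = u ^ 4 by simp [pow_succ, mul_assoc], ← hou]; exact pow_orderOf_eq_one u
    have hzO : ∀ y ∈ O, z * y = y * z → y = 1 := by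
      set W := O ⊓ Subgroup.centralizer ({z} : Set G) with hW
      have hWinv : ∀ g ∈ (T : Subgroup G), g ∉ K → ∀ y ∈ W, g * y * g⁻¹ = y⁻¹ := by
        intro g hg hgK
        refine inverts_of_fpf W g (fun y hy => ⟨hOn.conj_mem y hy.1 g, ?_⟩) (fun y hy => ?_)
          (fun y hy hgy => ?_)
        · refine Subgroup.mem_centralizer_singleton_iff.2 ?_
          calc g * y * g⁻¹ * z = g * y * (g⁻¹ * z) := by group
            _ = g * y * (z * g⁻¹) := by rw [hzcent _ ((T : Subgroup G).inv_mem hg)]
            _ = g * (y * z) * g⁻¹ := by group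
            _ = g * (z * y) * g⁻¹ := by rw [Subgroup.mem_centralizer_singleton_iff.1 hy.2]
            _ = g * z * y * g⁻¹ := by group
            _ = z * g * y * g⁻¹ := by rw [hzcent g hg]
            _ = z * (g * y * g⁻¹) := by group
        · rw [hsq g hg hgK]; exact (Subgroup.mem_centralizer_singleton_iff.1 hy.2).symm
        · rcases hCK g (hTP hg) hgK y (hOK hy.1) hgy with e | e
          · exact e
          · exact hodd1 y hy.1 (by rw [e, hsq g hg hgK, hzz])
      intro y hy hzy
      have hyW : y ∈ W := ⟨hy, Subgroup.mem_centralizer_singleton_iff.2 hzy.symm⟩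
      have a := hWinv (u * v) huvT huv y hyW
      rw [show u * v * y * (u * v)⁻¹ = u * (v * y * v⁻¹) * u⁻¹ by group,
        hWinv v hvT hvK y hyW, hWinv u huT huK _ (W.inv_mem hyW), inv_inv] at a
      exact hodd1 y hy (by nth_rewrite 1 [a]; exact inv_mul_cancel y)
    have hOab : ∀ a ∈ O, ∀ b ∈ O, a * b = b * a := fun a ha b hb =>
      comm_of_inverts O z (inverts_of_fpf O z (fun y hy => hOn.conj_mem y hy z)
        (fun y _ => by rw [hzz, one_mul, mul_one]) hzO) a ha b hb
    refine ⟨?_, Or.inr ⟨?_, hou⟩⟩
    · rw [hOeq]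
      exact IsMulCommutative.of_comm fun a b => Subtype.ext (hOab a a.2 b b.2)
    refine (show Nonempty (G ⧸ O ≃* Matrix.SpecialLinearGroup (Fin 2) (ZMod 5)) from ?_).map
      fun e => (QuotientGroup.quotientMulEquivOfEq hOeq).trans e
    -- the quotient by `O`
    have hcard120 : Nat.card (G ⧸ O) = 120 := by
      have e1 := O.card_eq_card_quotient_mul_card_subgroup
      rw [hcardG, ← hNcard] at e1
      rw [show Nat.card O = Nat.card N from
        Subgroup.card_map_of_injective K.subtype_injective] at e1
      refine (Nat.eq_of_mul_eq_mul_right (Nat.card_pos (α := N)) ?_).symm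
      rw [← e1]
      ring
    refine Core.Icosa.iso_sl2_five_of_quaternion hcard120 (fun hs => ?_) fun Q => ?_
    · haveI := hs
      haveI : Nontrivial (G ⧸ O) := Finite.one_lt_card_iff_nontrivial.1 (by omega)
      refine (Group.IsSolvable.commutator_lt_top_of_nontrivial (G ⧸ O)).ne ?_
      rw [commutator_def, ← Subgroup.map_top_of_surjective (QuotientGroup.mk' O)
        (QuotientGroup.mk'_surjective O), ← Subgroup.map_commutator, ← commutator_def,
        commutator_eq_top h]
    · set π' := QuotientGroup.mk' O with hπ'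
      set T₀ := T.mapSurjective (QuotientGroup.mk'_surjective O) with hT₀
      have hzO' : π' z ≠ 1 := fun e => h2 (hodd1 z ((QuotientGroup.eq_one_iff z).1 e) hzz)
      have hu4 : u ^ 4 = 1 := by rw [← hou]; exact pow_orderOf_eq_one u
      have hvv : v * v = u ^ 2 := by rw [sq, hsq v hvT hvK]
      have huvu : u * v = v * u ^ 3 := by
        have h1 := hsq (u * v) huvT huv
        have h3 : v * u * v = u := by
          calc v * u * v = u⁻¹ * (u * v * (u * v)) := by group
            _ = u := by rw [h1, hz]; group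
        calc u * v = v * u * (v * v) := by rw [← mul_assoc, h3]
          _ = v * u ^ 3 := by rw [hvv]; group
      let f : QuaternionGroup 2 →* G ⧸ O := S4295.quatHom (π' u) (π' v)
        (by rw [← map_pow, hu4, map_one]) (by rw [← map_mul, hvv, map_pow])
        (by rw [← map_mul, huvu, map_mul, map_pow])
      have hfz : f (.a 2) = π' z := by
        show (π' u) ^ 2 = π' z
        rw [← map_pow, sq]
      have hinj : Function.Injective f := (injective_iff_map_eq_one f).2 fun x hx => by
        rcases S4295.sq_cases x with e | e | e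
        · exact e
        · rw [e, hfz] at hx; exact absurd hx hzO'
        · exfalso
          apply hzO'
          rw [← hfz, ← e, map_mul, hx, one_mul]
      have hrange : f.range ≤ (T₀ : Subgroup (G ⧸ O)) := by
        rintro _ ⟨x, rfl⟩
        rw [hT₀, Sylow.coe_mapSurjective]
        cases x with
        | a i => exact Subgroup.pow_mem _ (Subgroup.mem_map_of_mem π' huT) _
        | xa i =>
          exact Subgroup.mul_mem _ (Subgroup.mem_map_of_mem π' hvT) (Subgroup.pow_mem _ (Subgroup.mem_map_of_mem π' huT) _)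
      have hT₀c : Nat.card (T₀ : Subgroup (G ⧸ O)) ≤ 8 := by
        rw [hT₀, Sylow.coe_mapSurjective, ← hT8]
        exact Nat.le_of_dvd Nat.card_pos ((T : Subgroup G).card_map_dvd _)
      have hrc : Nat.card f.range = 8 := by
        rw [← Nat.card_congr (MonoidHom.ofInjective hinj).toEquiv, Nat.card_eq_fintype_card,
          QuaternionGroup.card]
      have heq := Subgroup.eq_of_le_of_card_ge hrange (by omega)
      exact ⟨((Q.equiv T₀).trans (MulEquiv.subgroupCongr heq.symm)).trans
        (MonoidHom.ofInjective hinj).symm⟩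

end Cfsg.Agent.PermGroups.ConstFour
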